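import Cfsg.Agent.Depth.P.Num
import Cfsg.Agent.Depth.P.Dat

/-!
# Depth (S5768): kernel facts on the coefficients
-/

set_option autoImplicit false
set_option Elab.async false

namespace Cfsg.Agent.Depth.P

theorem fp60 : chkM 60 23000 15 Ap60 2422 157271346505481043477 425456003890717718205 = true := by decide +kernel

theorem fm60 : chkM 60 23000 15 Am60 2764 157271346505481043293 799899538963699369469 = true := by decide +kernel

theorem facts60 : Facts 60 23000 Ap60 Am60 (2422 + 2764) 3744395 3744476 :=
  facts_of fp60 fm60 (by decide +kernel)

theorem fp120 : chkM 120 23000 15 Ap60 2422 157271346505481043477 425456003890717718205 = true := by decide +kernel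

theorem fm120 : chkM 120 23000 15 Am60 2764 157271346505481043293 799899538963699369469 = true := by decide +kernel

theorem facts120 : Facts 120 23000 Ap60 Am60 (2422 + 2764) 3744395 3744476 :=
  facts_of fp120 fm120 (by decide +kernel)

theorem fp840 : chkM 840 34000 16 Ap840 3080 144979001486052148652 360471788405216888935 = true := by decide +kernel

theorem fm840 : chkM 840 34000 16 Am840 3840 144979001486052245716 796931867577495892938 = true := by decide +kernel

theorem facts840 : Facts 840 34000 Ap840 Am840 (3080 + 3840) 4364560 4364641 :=
  facts_of fp840 fm840 (by decide +kernel)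

theorem fp1320 : chkM 1320 23000 15 Ap1320 2144 146747445781910901349 355127307231392934508 = true := by decide +kernel

theorem fm1320 : chkM 1320 23000 15 Am1320 2722 146747445781911744047 766420460858518845997 = true := by decide +kernel

theorem facts1320 : Facts 1320 23000 Ap1320 Am1320 (2144 + 2722) 4112891 4112972 :=
  facts_of fp1320 fm1320 (by decide +kernel)

theorem fp1560 : chkM 1560 23000 15 Ap1560 2180 148423855174208842266 365672553820644912877 = true := by decide +kernel

theorem fm1560 : chkM 1560 23000 15 Am1560 2734 148423855174209311133 770773663455223454133 = true := by decide +kernel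

theorem facts1560 : Facts 1560 23000 Ap1560 Am1560 (2180 + 2734) 4050971 4051052 :=
  facts_of fp1560 fm1560 (by decide +kernel)

theorem fp2040 : chkM 2040 23000 15 Ap2040 2233 150626166438029004458 379725477955719852236 = true := by decide +kernel

theorem fm2040 : chkM 2040 23000 15 Am2040 2754 150626166438027863987 777088662604675686789 = true := by decide +kernel

theorem facts2040 : Facts 2040 23000 Ap2040 Am2040 (2233 + 2754) 3973591 3973672 :=
  facts_of fp2040 fm2040 (by decide +kernel)

theorem fp2280 : chkM 2280 23000 15 Ap2280 2249 151371091060562811368 384495353402241226159 = true := by decide +kernel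

theorem fm2280 : chkM 2280 23000 15 Am2280 2759 151371091060563086513 779285033163008761527 = true := by decide +kernel

theorem facts2280 : Facts 2280 23000 Ap2280 Am2280 (2249 + 2759) 3947856 3947937 :=
  facts_of fp2280 fm2280 (by decide +kernel)

end Cfsg.Agent.Depth.P
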