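import Mathlib

/-!
# Depth (S5768): the identity `Λ * (1 * a) = log * a`, sums over residue classes, Chebyshev's bound
-/

set_option autoImplicit false

namespace Cfsg.Agent.Depth.P

open Finset Real ArithmeticFunction
open scoped Chebyshev

theorem hyp (h : ℕ → ℕ → ℝ) (N : ℕ) :
    ∑ n ∈ Ioc 0 N, ∑ x ∈ n.divisorsAntidiagonal, h x.1 x.2 = ∑ d ∈ Ioc 0 N, ∑ i ∈ Ioc 0 (N / d), h d i := by
  rw [sum_sigma', sum_sigma']
  refine sum_bij' (fun x _ => ⟨x.2.1, x.2.2⟩) (fun y _ => ⟨y.1 * y.2, (y.1, y.2)⟩) ?_ ?_ ?_ ?_ ?_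
  · rintro ⟨n, d, i⟩ hx
    simp only [mem_sigma, mem_Ioc, Nat.mem_divisorsAntidiagonal] at hx ⊢
    obtain ⟨⟨h0, h1⟩, h2, h3⟩ := hx
    subst h2
    have hd : 0 < d := Nat.pos_of_mul_pos_right h0
    have hi : 0 < i := Nat.pos_of_mul_pos_left h0
    refine ⟨⟨hd, le_trans (Nat.le_mul_of_pos_right _ hi) h1⟩, hi, ?_⟩
    rw [Nat.le_div_iff_mul_le hd, mul_comm]; exact h1
  · rintro ⟨d, i⟩ hx
    simp only [mem_sigma, mem_Ioc, Nat.mem_divisorsAntidiagonal] at hx ⊢
    obtain ⟨⟨h0, h1⟩, h2, h3⟩ := hx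
    rw [Nat.le_div_iff_mul_le h0, mul_comm] at h3
    exact ⟨⟨Nat.mul_pos h0 h2, h3⟩, trivial, (Nat.mul_pos h0 h2).ne'⟩
  · rintro ⟨n, d, i⟩ hx
    simp only [mem_sigma, mem_Ioc, Nat.mem_divisorsAntidiagonal] at hx
    obtain ⟨-, h2, -⟩ := hx
    subst h2
    rfl
  · rintro ⟨d, i⟩ _
    rfl
  · rintro ⟨n, d, i⟩ _
    rfl

theorem sum_dvd (k n : ℕ) (hk : 0 < k) (g : ℕ → ℝ) :
    ∑ j ∈ Ioc 0 n, (if k ∣ j then g j else 0) = ∑ i ∈ Ioc 0 (n / k), g (k * i) := by
  rw [← sum_filter]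
  symm
  refine sum_bij' (fun i _ => k * i) (fun j _ => j / k) ?_ ?_ ?_ ?_ ?_
  · intro i hi
    simp only [mem_Ioc, mem_filter] at hi ⊢
    rw [Nat.le_div_iff_mul_le hk, mul_comm] at hi
    exact ⟨⟨Nat.mul_pos hk hi.1, hi.2⟩, dvd_mul_right _ _⟩
  · intro j hj
    simp only [mem_Ioc, mem_filter] at hj ⊢
    exact ⟨Nat.div_pos (Nat.le_of_dvd hj.1.1 hj.2) hk, Nat.div_le_div_right hj.1.2⟩
  · intro i _
    exact Nat.mul_div_cancel_left _ hk
  · intro j hj
    simp only [mem_filter] at hj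
    exact Nat.mul_div_cancel' hj.2
  · intro i _
    rfl

/-- `Λ * (1 * a) = log * a`, summed over the `n ≤ N` with `P n` -/
theorem ident (a : ℕ → ℝ) (K N : ℕ) (P : ℕ → Prop) [DecidablePred P] :
    ∑ d ∈ Ioc 0 N, Λ d * ∑ j ∈ (Ioc 0 (N / d)).filter (fun j => P (d * j)),
        ∑ k ∈ (Icc 1 K).filter (fun k => k ∣ j), a k =
      ∑ k ∈ Icc 1 K, a k * ∑ m ∈ (Ioc 0 (N / k)).filter (fun m => P (k * m)), Real.log m := by
  have h1 : ∀ d ∈ Ioc 0 N, Λ d * ∑ j ∈ (Ioc 0 (N / d)).filter (fun j => P (d * j)),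
        ∑ k ∈ (Icc 1 K).filter (fun k => k ∣ j), a k =
      ∑ k ∈ Icc 1 K, a k * ∑ i ∈ Ioc 0 (N / k / d), if P (k * (d * i)) then Λ d else 0 := by
    intro d _
    simp only [sum_filter]
    have : ∀ j, (if P (d * j) then ∑ k ∈ Icc 1 K, (if k ∣ j then a k else 0) else 0) =
        ∑ k ∈ Icc 1 K, (if k ∣ j then (if P (d * j) then a k else 0) else 0) := by
      intro j; split_ifs <;> simp
    simp only [this]
    rw [sum_comm, mul_sum]
    refine sum_congr rfl fun k hk => ?_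
    rw [sum_dvd k _ (mem_Icc.1 hk).1, Nat.div_div_eq_div_mul, Nat.div_div_eq_div_mul, mul_comm d k, mul_sum,
      mul_sum]
    refine sum_congr rfl fun i _ => ?_
    rw [mul_left_comm d k i]
    split_ifs
    · exact mul_comm _ _
    · simp
  rw [sum_congr rfl h1, sum_comm]
  refine sum_congr rfl fun k hk => ?_
  rw [← mul_sum]
  congr 1
  have h2 : ∀ m ∈ Ioc 0 (N / k), (if P (k * m) then Real.log m else 0) =
      ∑ x ∈ m.divisorsAntidiagonal, if P (k * (x.1 * x.2)) then Λ x.1 else 0 := by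
    intro m _
    rw [← vonMangoldt_sum, ← Nat.sum_divisorsAntidiagonal (fun d _ => (Λ d : ℝ))]
    symm
    rw [sum_congr rfl (g := fun x => if P (k * m) then Λ x.1 else 0)]
    · split_ifs <;> simp
    · intro x hx
      rw [(Nat.mem_divisorsAntidiagonal.1 hx).1]
  rw [sum_filter, sum_congr rfl h2, hyp (fun d i => if P (k * (d * i)) then Λ d else 0)]
  symm
  refine sum_subset (Ioc_subset_Ioc_right (Nat.div_le_self _ _)) ?_
  intro d h1 h2
  simp only [mem_Ioc, not_and, not_le] at h1 h2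
  rw [Nat.div_eq_of_lt (h2 h1.1)]
  simp

theorem one_class {W r : ℕ} (hr : r < W) (n : ℕ) :
    ∃ m, n < m ∧ m ≤ n + W ∧ (Ioc n (n + W)).filter (fun m => m % W = r) = {m} := by
  have hW : 0 < W := by omega
  have key : ∀ m m', n < m → m ≤ m' → m' ≤ n + W → m % W = r → m' % W = r → m = m' := by
    intro m m' h1 h2 h3 h4 h5
    have : W ∣ m' - m := (Nat.modEq_iff_dvd' h2).1 (h4.trans h5.symm)
    have := Nat.eq_zero_of_dvd_of_lt this (by omega)
    omega
  obtain ⟨m, h1, h2, h3⟩ : ∃ m, n < m ∧ m ≤ n + W ∧ m % W = r := by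
    have h0 := Nat.div_add_mod n W
    have h1 := Nat.mod_lt n hW
    by_cases h : n % W < r
    · refine ⟨W * (n / W) + r, by omega, by omega, ?_⟩
      rw [Nat.mul_add_mod, Nat.mod_eq_of_lt hr]
    · refine ⟨W * (n / W + 1) + r, by rw [mul_add]; omega, by rw [mul_add]; omega, ?_⟩
      rw [Nat.mul_add_mod, Nat.mod_eq_of_lt hr]
  refine ⟨m, h1, h2, ?_⟩
  ext m'
  simp only [mem_filter, mem_Ioc, mem_singleton]
  constructor
  · rintro ⟨⟨h4, h5⟩, h6⟩
    rcases le_total m m' with h | h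
    · exact (key m m' h1 h h5 h3 h6).symm
    · exact key m' m h4 h h2 h6 h3
  · rintro rfl
    exact ⟨⟨h1, h2⟩, h3⟩

/-- sums of a monotone function over a residue class -/
theorem classSum {W r : ℕ} (hr : r < W) (f F : ℝ → ℝ) (b : ℝ) (hb : 0 ≤ b) (h0 : ∀ s, b ≤ s → 0 ≤ f s)
    (hm : ∀ s t, b ≤ s → s ≤ t → f s ≤ f t)
    (hF : ∀ s t, b ≤ s → s ≤ t → (t - s) * f s ≤ F t - F s ∧ F t - F s ≤ (t - s) * f t) :
    ∀ s t : ℝ, b ≤ s → s ≤ t →
      |∑ m ∈ (Ioc ⌊s⌋₊ ⌊t⌋₊).filter (fun m => m % W = r), f m - (F t - F s) / W| ≤ f t := by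
  have hW : (0 : ℝ) < W := by exact_mod_cast (by omega : 0 < W)
  intro s t hs hst
  obtain ⟨i, hi⟩ : ∃ i : ℕ, t - s < (i + 1) * W := by
    obtain ⟨i, hi⟩ := exists_nat_gt ((t - s) / W)
    refine ⟨i, ?_⟩
    rw [div_lt_iff₀ hW] at hi
    nlinarith
  have base : ∀ t, s ≤ t → t - s < W →
      |∑ m ∈ (Ioc ⌊s⌋₊ ⌊t⌋₊).filter (fun m => m % W = r), f m - (F t - F s) / W| ≤ f t := by
    intro t hst hi
    obtain ⟨m, h1, h2, h3⟩ := one_class hr ⌊s⌋₊
    have hft := h0 t (hs.trans hst)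
    have hsub : (Ioc ⌊s⌋₊ ⌊t⌋₊).filter (fun m => m % W = r) ⊆ {m} := by
      rw [← h3]
      refine filter_subset_filter _ (Ioc_subset_Ioc_right ?_)
      rw [← Nat.floor_add_natCast (hb.trans hs)]
      exact Nat.floor_mono (by linarith)
    have hel : ∀ m ∈ (Ioc ⌊s⌋₊ ⌊t⌋₊).filter (fun m => m % W = r), 0 ≤ f m ∧ f m ≤ f t := by
      intro m hm'
      simp only [mem_filter, mem_Ioc] at hm'
      have h4 : s < m := (Nat.floor_lt (hb.trans hs)).1 hm'.1.1
      have h5 : (m : ℝ) ≤ t := (Nat.le_floor_iff (hb.trans (hs.trans hst))).1 hm'.1.2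
      exact ⟨h0 _ (by linarith), hm _ _ (by linarith) h5⟩
    have hS : 0 ≤ ∑ m ∈ (Ioc ⌊s⌋₊ ⌊t⌋₊).filter (fun m => m % W = r), f m ∧
        ∑ m ∈ (Ioc ⌊s⌋₊ ⌊t⌋₊).filter (fun m => m % W = r), f m ≤ f t := by
      refine ⟨sum_nonneg fun m hm => (hel m hm).1, ?_⟩
      rcases subset_singleton_iff.1 hsub with h | h
      · rw [h]; simpa using hft
      · have := hel m (by rw [h]; simp)
        rw [h]; simpa using this.2
    obtain ⟨h4, h5⟩ := hF s t hs hst
    have h6 : 0 ≤ (F t - F s) / W := div_nonneg (le_trans (mul_nonneg (by linarith) (h0 s hs)) h4) hW.le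
    have h7 : (F t - F s) / W ≤ f t := by
      rw [div_le_iff₀ hW]; nlinarith
    rw [abs_le]; constructor <;> linarith [hS.1, hS.2]
  induction i generalizing t with
  | zero => exact base t hst (by simpa using hi)
  | succ i ih =>
    by_cases h : t - s < W
    · exact base t hst h
    · have hst' : s ≤ t - W := by linarith
      have ih' := ih (t - W) hst' (by push_cast at hi; linarith)
      have h0' : 0 ≤ t - W := hb.trans (hs.trans hst')
      have hfl : ⌊t⌋₊ = ⌊t - W⌋₊ + W := by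
        rw [← Nat.floor_add_natCast h0']; simp
      obtain ⟨m, h1, h2, h3⟩ := one_class hr ⌊t - W⌋₊
      have hsp : ∑ m ∈ (Ioc ⌊s⌋₊ ⌊t⌋₊).filter (fun m => m % W = r), f m =
          ∑ m ∈ (Ioc ⌊s⌋₊ ⌊t - W⌋₊).filter (fun m => m % W = r), f m + f m := by
        rw [hfl, ← Ioc_union_Ioc_eq_Ioc (Nat.floor_mono hst') (Nat.le_add_right _ W), filter_union, sum_union, h3,
          sum_singleton]
        exact disjoint_filter_filter (Ioc_disjoint_Ioc_of_le le_rfl)
      have h4 : t - W < m := (Nat.floor_lt h0').1 h1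
      have h5 : (m : ℝ) ≤ t := (Nat.le_floor_iff (by linarith)).1 (hfl ▸ h2)
      have h6 := hm (t - W) m (hs.trans hst') h4.le
      have h7 := hm m t (by linarith) h5
      obtain ⟨h8, h9⟩ := hF (t - W) t (hs.trans hst') (by linarith)
      have h10 : f (t - W) ≤ (F t - F (t - W)) / W := by
        rw [le_div_iff₀ hW]; nlinarith
      have h11 : (F t - F (t - W)) / W ≤ f t := by
        rw [div_le_iff₀ hW]; nlinarith
      have h12 : (F t - F s) / W = (F (t - W) - F s) / W + (F t - F (t - W)) / W := by ring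
      rw [hsp, h12, abs_le]
      rw [abs_le] at ih'
      constructor <;> linarith [ih'.1, ih'.2]

/-- the number of integers of a class in an interval -/
theorem classCount {W r : ℕ} (hr : r < W) {s t : ℝ} (hs : 0 ≤ s) (hst : s ≤ t) :
    |(((Ioc ⌊s⌋₊ ⌊t⌋₊).filter (fun m => m % W = r)).card : ℝ) - (t - s) / W| ≤ 1 := by
  have := classSum hr (fun _ => 1) (fun x => x) 0 le_rfl (fun _ _ => zero_le_one) (fun _ _ _ _ => le_rfl)
    (fun s t _ _ => by simp) s t hs hst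
  simpa using this

/-- primitive of the logarithm -/
noncomputable def FL (t : ℝ) : ℝ := t * Real.log t - t

theorem classLog1 {W r : ℕ} (hr : r < W) {s t : ℝ} (hs : 1 ≤ s) (hst : s ≤ t) :
    |∑ m ∈ (Ioc ⌊s⌋₊ ⌊t⌋₊).filter (fun m => m % W = r), Real.log m - (FL t - FL s) / W| ≤ Real.log t := by
  refine classSum hr Real.log FL 1 zero_le_one (fun s hs => log_nonneg hs)
    (fun s t hs hst => log_le_log (by linarith) hst) ?_ s t hs hst
  intro s t hs hst
  have hs0 : 0 < s := by linarith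
  have ht0 : 0 < t := by linarith
  have h1 := Real.log_le_sub_one_of_pos (div_pos hs0 ht0)
  have h2 := Real.log_le_sub_one_of_pos (div_pos ht0 hs0)
  rw [log_div hs0.ne' ht0.ne'] at h1
  rw [log_div ht0.ne' hs0.ne'] at h2
  have h3 : t * (Real.log s - Real.log t) ≤ s - t := by
    have := mul_le_mul_of_nonneg_left h1 ht0.le
    rwa [mul_sub t (s / t), mul_div_cancel₀ _ ht0.ne', mul_one] at this
  have h4 : s * (Real.log t - Real.log s) ≤ t - s := by
    have := mul_le_mul_of_nonneg_left h2 hs0.le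
    rwa [mul_sub s (t / s), mul_div_cancel₀ _ hs0.ne', mul_one] at this
  unfold FL
  constructor <;> nlinarith

/-- the logarithms of a class, lower end `0` or `≥ 1` -/
theorem classLog {W r : ℕ} (hr : r < W) {s t : ℝ} (hs : s = 0 ∨ 1 ≤ s) (hst : s ≤ t) (ht : 1 ≤ t) :
    |∑ m ∈ (Ioc ⌊s⌋₊ ⌊t⌋₊).filter (fun m => m % W = r), Real.log m - (FL t - FL s) / W| ≤ Real.log t + 1 := by
  rcases hs with rfl | hs
  · have h := classLog1 hr le_rfl ht
    have hW : (1 : ℝ) ≤ W := by exact_mod_cast (by omega : 1 ≤ W)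
    have e : ∑ m ∈ (Ioc ⌊(0 : ℝ)⌋₊ ⌊t⌋₊).filter (fun m => m % W = r), Real.log m =
        ∑ m ∈ (Ioc ⌊(1 : ℝ)⌋₊ ⌊t⌋₊).filter (fun m => m % W = r), Real.log m := by
      symm
      refine sum_subset (filter_subset_filter _ (Ioc_subset_Ioc_left (by simp))) ?_
      intro m h1 h2
      simp only [mem_filter, mem_Ioc, Nat.floor_zero, Nat.floor_one] at h1 h2
      have : m = 1 := by
        by_contra h3
        exact h2 ⟨⟨by omega, h1.1.2⟩, h1.2⟩
      simp [this]
    have e1 : FL 1 = -1 := by simp [FL]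
    have e0 : FL 0 = 0 := by simp [FL]
    have h1 : 1 / (W : ℝ) ≤ 1 := by rw [div_le_one (by linarith)]; exact hW
    have h2 : 0 ≤ 1 / (W : ℝ) := by positivity
    rw [e, e0]
    rw [e1, show (FL t - -1) / W = (FL t - 0) / W + 1 / W by ring, abs_le] at h
    rw [abs_le]
    constructor <;> linarith [h.1, h.2]
  · linarith [classLog1 hr hs hst]

/-- division in the reduced classes -/
theorem cls {W d r : ℕ} (hr : r < W) (hd : d.Coprime W) (hc : r.Coprime W) :
    ∃ ρ, ρ < W ∧ ρ.Coprime W ∧ ∀ j, (d * j) % W = r ↔ j % W = ρ := by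
  have hW : 0 < W := by omega
  obtain ⟨ρ, h1, h2⟩ := Nat.exists_mul_mod_eq_of_coprime r hd hW.ne'
  rw [Nat.mod_eq_of_lt hr] at h2
  refine ⟨ρ, h1, ?_, fun j => ⟨fun h => ?_, fun h => ?_⟩⟩
  · have : (d * ρ).Coprime W := by
      rw [Nat.Coprime, Nat.gcd_comm, Nat.gcd_rec, h2]; exact hc
    exact Nat.Coprime.coprime_mul_left this
  · have : d * j ≡ d * ρ [MOD W] := h.trans h2.symm
    have := Nat.ModEq.cancel_left_of_coprime hd.symm this
    rwa [Nat.ModEq, Nat.mod_eq_of_lt h1] at this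
  · rw [Nat.mul_mod, h, ← h2, Nat.mul_mod d ρ, Nat.mod_eq_of_lt h1]

theorem cop_of {W d j r : ℕ} (hc : r.Coprime W) (h : (d * j) % W = r) : d.Coprime W := by
  have : (d * j).Coprime W := by
    rw [Nat.Coprime, Nat.gcd_comm, Nat.gcd_rec, h]; exact hc
  exact Nat.Coprime.coprime_mul_right this

theorem log_le_sqrt {t : ℝ} (ht : 0 ≤ t) : Real.log t ≤ 2 * √t := by
  have := Real.log_le_rpow_div ht (ε := 1 / 2) (by norm_num)
  rw [sqrt_eq_rpow]; linarith

/-- Chebyshev's step -/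
theorem cheb_step {t : ℝ} (ht : 30 ≤ t) : ψ t - ψ (t / 6) ≤ 0.9214 * t + 5 * (Real.log t + 1) := by
  have h0 : 0 ≤ t := by linarith
  set N := ⌊t⌋₊ with hN
  let a : ℕ → ℝ := fun k => if k = 1 ∨ k = 30 then 1 else if k = 2 ∨ k = 3 ∨ k = 5 then -1 else 0
  have hid := ident a 30 N (fun _ => True)
  have hsum : ∀ g : ℕ → ℝ, ∑ k ∈ Icc 1 30, a k * g k = g 1 - g 2 - g 3 - g 5 + g 30 := by
    intro g
    simp only [a, show Icc 1 30 = (range 30).map ⟨(· + 1), add_left_injective 1⟩ by decide, sum_map, sum_range_succ]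
    norm_num
    ring
  have hE : ∀ n : ℕ, ∑ j ∈ (Ioc 0 n).filter (fun _ => True), ∑ k ∈ (Icc 1 30).filter (fun k => k ∣ j), a k =
      (n : ℝ) - (n / 2 : ℕ) - (n / 3 : ℕ) - (n / 5 : ℕ) + (n / 30 : ℕ) := by
    intro n
    simp only [filter_true, sum_filter]
    rw [sum_comm]
    have : ∀ k ∈ Icc 1 30, (∑ j ∈ Ioc 0 n, if k ∣ j then a k else 0) = a k * (n / k : ℕ) := by
      intro k hk
      rw [sum_dvd k n (mem_Icc.1 hk).1 (fun _ => a k)]
      simp [mul_comm]
    rw [sum_congr rfl this, hsum]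
    simp
  have hL : ∀ k : ℕ, 1 ≤ k → k ≤ 30 → |∑ m ∈ (Ioc 0 (N / k)).filter (fun _ => True), Real.log m - FL (t / k)| ≤
      Real.log t + 1 := by
    intro k h1 h2
    have hk : (1 : ℝ) ≤ k := by exact_mod_cast h1
    have hk' : (k : ℝ) ≤ 30 := by exact_mod_cast h2
    have h3 : 1 ≤ t / k := by rw [le_div_iff₀ (by linarith)]; linarith
    have h := classLog (W := 1) (r := 0) one_pos (s := 0) (t := t / k) (Or.inl rfl) (by linarith) h3
    have h4 : Real.log (t / k) ≤ Real.log t := log_le_log (by linarith) (div_le_self h0 hk)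
    simp only [Nat.floor_zero, Nat.floor_div_natCast, Nat.mod_one, FL, zero_mul, sub_zero, Nat.cast_one,
      div_one] at h
    simp only [FL]
    linarith
  have hlow : ψ t - ψ (t / 6) ≤ ∑ d ∈ Ioc 0 N, Λ d * ∑ j ∈ (Ioc 0 (N / d)).filter (fun _ => True),
      ∑ k ∈ (Icc 1 30).filter (fun k => k ∣ j), a k := by
    have h6 : ⌊t / 6⌋₊ = N / 6 := by
      have := Nat.floor_div_natCast t 6
      simpa using this
    rw [Chebyshev.psi, Chebyshev.psi, h6, ← hN, sub_le_iff_le_add,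
      ← sum_subset (s₁ := Ioc 0 (N / 6)) (s₂ := Ioc 0 N) (f := fun d => if d ≤ N / 6 then (Λ d : ℝ) else 0)
        (Ioc_subset_Ioc_right (Nat.div_le_self _ _)) (by
          intro d h1 h2
          simp only [mem_Ioc, not_and, not_le] at h1 h2
          rw [if_neg (not_le.2 (h2 h1.1))]) |>.symm.trans (sum_congr rfl fun d hd => if_pos (mem_Ioc.1 hd).2),
      ← sum_add_distrib]
    refine sum_le_sum fun d hd => ?_
    rw [hE]
    have hd' := mem_Ioc.1 hd
    have hΛ : (0 : ℝ) ≤ Λ d := vonMangoldt_nonneg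
    have h1 : 1 ≤ N / d := (Nat.le_div_iff_mul_le hd'.1).2 (by omega)
    generalize hn : N / d = n at h1
    split_ifs with h
    · have : n / 2 + n / 3 + n / 5 ≤ n + n / 30 := by omega
      have : ((n / 2 : ℕ) : ℝ) + (n / 3 : ℕ) + (n / 5 : ℕ) ≤ n + (n / 30 : ℕ) := by exact_mod_cast this
      nlinarith
    · have h2 : n < 6 := by
        rw [← hn, Nat.div_lt_iff_lt_mul hd'.1]; omega
      have : n / 2 + n / 3 + n / 5 + 1 ≤ n + n / 30 := by omega
      have : ((n / 2 : ℕ) : ℝ) + (n / 3 : ℕ) + (n / 5 : ℕ) + 1 ≤ n + (n / 30 : ℕ) := by exact_mod_cast this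
      nlinarith
  rw [hid, hsum] at hlow
  have e1 := abs_le.1 (hL 1 (by norm_num) (by norm_num))
  have e2 := abs_le.1 (hL 2 (by norm_num) (by norm_num))
  have e3 := abs_le.1 (hL 3 (by norm_num) (by norm_num))
  have e5 := abs_le.1 (hL 5 (by norm_num) (by norm_num))
  have e30 := abs_le.1 (hL 30 (by norm_num) (by norm_num))
  have ht0 : t ≠ 0 := by linarith
  have hF : FL (t / (1 : ℕ)) - FL (t / (2 : ℕ)) - FL (t / (3 : ℕ)) - FL (t / (5 : ℕ)) + FL (t / (30 : ℕ)) =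
      t * (7 / 15 * Real.log 2 + 3 / 10 * Real.log 3 + 1 / 6 * Real.log 5) := by
    have : Real.log 30 = Real.log 2 + Real.log 3 + Real.log 5 := by
      rw [← log_mul (by norm_num) (by norm_num), ← log_mul (by norm_num) (by norm_num)]; norm_num
    simp only [FL, Nat.cast_ofNat, Nat.cast_one, div_one]
    rw [log_div ht0 (by norm_num), log_div ht0 (by norm_num), log_div ht0 (by norm_num), log_div ht0 (by norm_num),
      this]
    ring
  have l2 := Real.log_two_lt_d9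
  have l3 : Real.log 3 ≤ 1.0987 := by
    have h := log_div_le_sum_range_add (x := 1 / 5) (by norm_num) (by norm_num) 3
    have : Real.log ((1 + 1 / 5) / (1 - 1 / 5)) = Real.log 3 - Real.log 2 := by
      rw [← log_div (by norm_num) (by norm_num)]; norm_num
    rw [this] at h
    norm_num [sum_range_succ] at h
    linarith
  have l5 : Real.log 5 ≤ 1.6095 := by
    have h := log_div_le_sum_range_add (x := 1 / 9) (by norm_num) (by norm_num) 3
    have : Real.log ((1 + 1 / 9) / (1 - 1 / 9)) = Real.log 5 - 2 * Real.log 2 := by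
      rw [show (2 : ℝ) * Real.log 2 = Real.log 4 by rw [show (4 : ℝ) = 2 ^ 2 by norm_num, log_pow]; norm_num,
        ← log_div (by norm_num) (by norm_num)]; norm_num
    rw [this] at h
    norm_num [sum_range_succ] at h
    linarith
  have : t * (7 / 15 * Real.log 2 + 3 / 10 * Real.log 3 + 1 / 6 * Real.log 5) ≤ t * 0.9214 :=
    mul_le_mul_of_nonneg_left (by linarith) h0
  linarith [e1.2, e2.1, e3.1, e5.1, e30.2]

/-- Chebyshev's upper bound -/
theorem cheb {t : ℝ} (ht : 0 ≤ t) : ψ t ≤ 1.106 * t + 26 * √t := by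
  obtain ⟨i, hi⟩ : ∃ i : ℕ, t < 30 + i := by
    obtain ⟨i, hi⟩ := exists_nat_gt t
    exact ⟨i, by linarith⟩
  have base : ∀ t : ℝ, 0 ≤ t → t < 30 → ψ t ≤ 1.106 * t + 26 * √t := by
    intro t ht h
    have h1 := Chebyshev.psi_le_const_mul_self ht
    have l4 : Real.log 4 ≤ 1.4 := by
      rw [show (4 : ℝ) = 2 ^ 2 by norm_num, log_pow]; have := Real.log_two_lt_d9; norm_num; linarith
    have h2 : √t ≤ 6 := by rw [sqrt_le_left (by norm_num)]; linarith
    have h3 := sqrt_nonneg t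
    have h4 := mul_self_sqrt ht
    nlinarith
  induction i generalizing t with
  | zero => exact base t ht (by simpa using hi)
  | succ i ih =>
    by_cases h : t < 30
    · exact base t ht h
    · have h := not_lt.1 h
      have h1 := cheb_step h
      have h2 := ih (t := t / 6) (by positivity) (by push_cast at hi; linarith)
      have h3 := log_le_sqrt ht
      have h4 : √(t / 6) ≤ 0.41 * √t := by
        rw [sqrt_le_left (by positivity), mul_pow, sq_sqrt ht]; linarith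
      have h5 : 1 ≤ √t := by rw [one_le_sqrt]; linarith
      linarith

/-- prime powers -/
theorem psi_sub_theta {t : ℝ} (ht : 10 ^ 8 ≤ t) : ψ t - θ t ≤ 2 * √t := by
  have h0 : 0 ≤ t := by linarith
  have h := Chebyshev.psi_sub_theta_le_psi_add_psi_add_psi t
  have l4 : Real.log 4 ≤ 1.4 := by
    rw [show (4 : ℝ) = 2 ^ 2 by norm_num, log_pow]; have := Real.log_two_lt_d9; norm_num; linarith
  have e2 : t ^ (2 : ℝ)⁻¹ = √t := by rw [sqrt_eq_rpow]; norm_num
  have h1 := cheb (sqrt_nonneg t)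
  have h2 : 10 ^ 4 ≤ √t := by rw [le_sqrt (by norm_num) h0]; linarith
  have h3 : √√t ≤ √t / 100 := by
    rw [sqrt_le_left (by positivity)]; nlinarith
  have h4 : t ^ (3 : ℝ)⁻¹ ≤ √t / 20 := by
    have e : √t = t ^ (3 : ℝ)⁻¹ * t ^ (6 : ℝ)⁻¹ := by
      rw [← rpow_add (by linarith), sqrt_eq_rpow]; norm_num
    have : (20 : ℝ) ≤ t ^ (6 : ℝ)⁻¹ := by
      rw [le_rpow_inv_iff_of_pos (by norm_num) h0 (by norm_num)]
      have : (20 : ℝ) ^ (6 : ℝ) = 20 ^ (6 : ℕ) := by rw [← rpow_natCast]; norm_num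
      rw [this]; linarith
    have h5 : 0 ≤ t ^ (3 : ℝ)⁻¹ := by positivity
    rw [e]; nlinarith
  have h5 : t ^ (5 : ℝ)⁻¹ ≤ t ^ (3 : ℝ)⁻¹ := rpow_le_rpow_of_exponent_le (by linarith) (by norm_num)
  have h6 := Chebyshev.psi_le_const_mul_self (x := t ^ (3 : ℝ)⁻¹) (by positivity)
  have h7 := Chebyshev.psi_mono h5
  have h8 : 0 ≤ t ^ (3 : ℝ)⁻¹ := by positivity
  rw [e2] at h
  nlinarith

end Cfsg.Agent.Depth.P
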