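import Mathlib

/-!
# Depth (S5768): tables for the elementary prime estimates (interface)

The coefficients `a_k` are given by two bit masks; `e = 1 * a`; `E r n` is the sum of `e j` over `2 ≤ j ≤ n`,
`j ≡ r`. Blocks are given in rows of length `W`.
-/

set_option autoImplicit false

namespace Cfsg.Agent.Depth.P

open Finset

/-- coefficients given by two bit masks -/
def aa (Ap Am k : ℕ) : ℤ := (if Ap.testBit k then 1 else 0) - (if Am.testBit k then 1 else 0)

/-- `e = 1 * a`, with the terms `k ≤ K` -/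
def ee (K Ap Am j : ℕ) : ℤ := ∑ k ∈ (Icc 1 K).filter (fun k => k ∣ j), aa Ap Am k

/-- partial sums of `e` in the class `r` (the term `j = 1` is left out) -/
def EE (W K Ap Am r n : ℕ) : ℤ := ∑ j ∈ (Icc 2 n).filter (fun j => j % W = r), ee K Ap Am j

/-- the tabulated function: `c = 2` interval version `E(n) - E(n/2)`, `c = 1` pointwise version `E(n)` -/
def DD (c W K Ap Am r n : ℕ) : ℤ := EE W K Ap Am r n - if c = 2 then EE W K Ap Am r (n / 2) else 0

/-- one block: the rows `s0 ≤ s < s1`, i.e. `c s0 W ≤ n < c s1 W` -/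
def Blk (c W K Ap Am s0 s1 sp sm : ℕ) : Prop :=
  ∃ M m : ℕ → ℕ,
    (∀ r n, r < W → r.Coprime W → c * s0 * W ≤ n → n < c * s1 * W →
      -(m r : ℤ) ≤ DD c W K Ap Am r n ∧ DD c W K Ap Am r n ≤ M r) ∧
    (∀ r, r < W → r.Coprime W → M r ≤ 160 ∧ m r ≤ 160) ∧
    ∑ r ∈ (range W).filter (fun r => r.Coprime W), M r ≤ sp ∧
    ∑ r ∈ (range W).filter (fun r => r.Coprime W), m r ≤ sm

/-- a chain of blocks `(s1, sp, sm)` starting at the row `s` -/
def Tab (c W K Ap Am : ℕ) : ℕ → List (ℕ × ℕ × ℕ) → Prop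
  | _, [] => True
  | s, b :: t => Blk c W K Ap Am s b.1 b.2.1 b.2.2 ∧ Tab c W K Ap Am b.1 t

theorem Tab_realised : True := by have := @Tab.eq_def; trivial

end Cfsg.Agent.Depth.P
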