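import Cfsg.Agent.Depth.P.Id
import Cfsg.Agent.Depth.P.Tab
import Cfsg.Agent.Depth.ADefs

/-!
# Depth (S5768): the master inequality for primes in progressions from a block table
-/

set_option autoImplicit false

namespace Cfsg.Agent.Depth.P

open Finset Real ArithmeticFunction
open scoped Chebyshev

theorem filt {d : ℕ} (hd : 0 < d) (W r A n : ℕ) :
    (Ioc 0 n).filter (fun j => (d * j) % W = r ∧ A < d * j) = (Ioc (A / d) n).filter (fun j => (d * j) % W = r) := by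
  ext j
  simp only [mem_filter, mem_Ioc, Nat.div_lt_iff_lt_mul hd, mul_comm j d]
  constructor
  · rintro ⟨⟨_, h2⟩, h3, h4⟩
    exact ⟨⟨h4, h2⟩, h3⟩
  · rintro ⟨⟨h1, h2⟩, h3⟩
    refine ⟨⟨Nat.pos_of_ne_zero ?_, h2⟩, h3, h1⟩
    rintro rfl
    simp at h1

/-- inner sums -/
noncomputable def UU (a : ℕ → ℝ) (K W r A N d : ℕ) : ℝ :=
  ∑ j ∈ (Ioc (A / d) (N / d)).filter (fun j => (d * j) % W = r), ∑ k ∈ (Icc 1 K).filter (fun k => k ∣ j), a k

section abstract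

variable {a : ℕ → ℝ} {K W r : ℕ} {u X : ℝ}

theorem main_term (hr : r < W) (hc : r.Coprime W) (hco : ∀ k ∈ Icc 1 K, a k ≠ 0 → k.Coprime W)
    (h0 : ∑ k ∈ Icc 1 K, a k / k = 0) (hu : u = 0 ∨ (K : ℝ) ≤ u) (huX : u ≤ X) (hX : (K : ℝ) ≤ X) :
    |∑ d ∈ Ioc 0 ⌊X⌋₊, Λ d * UU a K W r ⌊u⌋₊ ⌊X⌋₊ d -
        (X - u) * (-∑ k ∈ Icc 1 K, a k * Real.log k / k) / W| ≤ (∑ k ∈ Icc 1 K, |a k|) * (Real.log X + 1) := by
  have hid := ident a K ⌊X⌋₊ (fun n => n % W = r ∧ ⌊u⌋₊ < n)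
  have e1 : ∑ d ∈ Ioc 0 ⌊X⌋₊, Λ d * UU a K W r ⌊u⌋₊ ⌊X⌋₊ d =
      ∑ k ∈ Icc 1 K, a k * ∑ m ∈ (Ioc ⌊u / k⌋₊ ⌊X / k⌋₊).filter (fun m => (k * m) % W = r), Real.log m := by
    refine (sum_congr rfl fun d hd => ?_).trans (hid.trans (sum_congr rfl fun k hk => ?_))
    · rw [filt (mem_Ioc.1 hd).1, UU]
    · rw [filt (mem_Icc.1 hk).1, Nat.floor_div_natCast, Nat.floor_div_natCast]
  have e2 : (X - u) * (-∑ k ∈ Icc 1 K, a k * Real.log k / k) / W =
      ∑ k ∈ Icc 1 K, a k * ((FL (X / k) - FL (u / k)) / W) := by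
    have : ∀ k ∈ Icc 1 K, a k * ((FL (X / k) - FL (u / k)) / W) =
        (FL X - FL u) / W * (a k / k) - (X - u) / W * (a k * Real.log k / k) := by
      intro k hk
      have hk' : (k : ℝ) ≠ 0 := by have := (mem_Icc.1 hk).1; positivity
      have : ∀ t : ℝ, FL (t / k) = FL t / k - t * Real.log k / k := by
        intro t
        by_cases ht : t = 0
        · simp [ht, FL]
        · rw [FL, FL, log_div ht hk']; ring
      rw [this, this]; ring
    rw [sum_congr rfl this, sum_sub_distrib, ← mul_sum, ← mul_sum, h0]; ring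
  rw [e1, e2, ← sum_sub_distrib, sum_mul]
  refine (abs_sum_le_sum_abs _ _).trans (sum_le_sum fun k hk => ?_)
  rw [← mul_sub, abs_mul]
  by_cases hk0 : a k = 0
  · simp [hk0]
  refine mul_le_mul_of_nonneg_left ?_ (abs_nonneg _)
  obtain ⟨ρ, h1, -, h3⟩ := cls hr (hco k hk hk0) hc
  have hk1 : (1 : ℝ) ≤ k := by exact_mod_cast (mem_Icc.1 hk).1
  have hk2 : (k : ℝ) ≤ K := by exact_mod_cast (mem_Icc.1 hk).2
  have h4 : 1 ≤ X / k := by rw [le_div_iff₀ (by linarith)]; linarith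
  have h5 := classLog h1 (s := u / k) (t := X / k) (hu.imp (fun h => by simp [h]) (fun h => by
    rw [le_div_iff₀ (by linarith)]; linarith)) (by gcongr) h4
  have h6 : Real.log (X / k) ≤ Real.log X := log_le_log (by linarith) (div_le_self (by linarith) hk1)
  simp only [h3]
  linarith

theorem card_le (hr : r < W) (hc : r.Coprime W) (hu : 0 ≤ u) (huX : u ≤ X) {d : ℕ} (hd : d.Coprime W) (hd0 : 0 < d) :
    |(((Ioc (⌊u⌋₊ / d) (⌊X⌋₊ / d)).filter (fun j => (d * j) % W = r)).card : ℝ) - (X - u) / d / W| ≤ 1 := by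
  obtain ⟨ρ, h1, -, h3⟩ := cls hr hd hc
  have := classCount h1 (s := u / d) (t := X / d) (by positivity) (by gcongr)
  rw [Nat.floor_div_natCast, Nat.floor_div_natCast, ← sub_div] at this
  simpa only [h3] using this

theorem UU_zero (hc : r.Coprime W) {A N d : ℕ} (hd : ¬ d.Coprime W) : UU a K W r A N d = 0 :=
  sum_eq_zero fun _ hj => absurd (cop_of hc (mem_filter.1 hj).2) hd

theorem UU_le (hr : r < W) (hc : r.Coprime W) (hco : ∀ k ∈ Icc 1 K, a k ≠ 0 → k.Coprime W)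
    (h0 : ∑ k ∈ Icc 1 K, a k / k = 0) (hu : 0 ≤ u) (huX : u ≤ X) {d : ℕ} (hd0 : 0 < d) :
    |UU a K W r ⌊u⌋₊ ⌊X⌋₊ d| ≤ ∑ k ∈ Icc 1 K, |a k| := by
  by_cases hd : d.Coprime W
  swap
  · rw [UU_zero hc hd, abs_zero]; exact sum_nonneg fun _ _ => abs_nonneg _
  have e1 : UU a K W r ⌊u⌋₊ ⌊X⌋₊ d = ∑ k ∈ Icc 1 K, a k *
      (((Ioc (⌊u⌋₊ / (d * k)) (⌊X⌋₊ / (d * k))).filter (fun j => (d * k * j) % W = r)).card : ℝ) := by
    rw [UU, ← filt hd0]
    simp only [sum_filter]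
    have : ∀ j, (if (d * j) % W = r ∧ ⌊u⌋₊ < d * j then ∑ k ∈ Icc 1 K, (if k ∣ j then a k else 0) else 0) =
        ∑ k ∈ Icc 1 K, (if k ∣ j then (if (d * j) % W = r ∧ ⌊u⌋₊ < d * j then a k else 0) else 0) := by
      intro j; split_ifs <;> simp
    simp only [this]
    rw [sum_comm]
    refine sum_congr rfl fun k hk => ?_
    have hk0 : 0 < k := (mem_Icc.1 hk).1
    rw [sum_dvd k _ hk0, ← filt (Nat.mul_pos hd0 hk0), ← sum_filter, sum_const, nsmul_eq_mul, mul_comm,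
      Nat.div_div_eq_div_mul]
    simp only [mul_assoc]
  have e2 : (0 : ℝ) = ∑ k ∈ Icc 1 K, a k * ((X - u) / (d * k : ℕ) / W) := by
    have : ∀ k ∈ Icc 1 K, a k * ((X - u) / (d * k : ℕ) / W) = (X - u) / d / W * (a k / k) := by
      intro k _
      push_cast; ring
    rw [sum_congr rfl this, ← mul_sum, h0, mul_zero]
  rw [← sub_zero (UU a K W r ⌊u⌋₊ ⌊X⌋₊ d), e1, e2, ← sum_sub_distrib]
  refine (abs_sum_le_sum_abs _ _).trans (sum_le_sum fun k hk => ?_)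
  rw [← mul_sub, abs_mul]
  by_cases hk0 : a k = 0
  · simp [hk0]
  exact mul_le_of_le_one_right (abs_nonneg _) (card_le hr hc hu huX (Nat.Coprime.mul_left hd (hco k hk hk0))
    (Nat.mul_pos hd0 (mem_Icc.1 hk).1))

end abstract

/-- `σ = ∑ a_k/k` -/
noncomputable def sg (K Ap Am : ℕ) : ℝ := ∑ k ∈ Icc 1 K, (aa Ap Am k : ℝ) / k

/-- `-∑ a_k log k / k` -/
noncomputable def LL (K Ap Am : ℕ) : ℝ := -∑ k ∈ Icc 1 K, (aa Ap Am k : ℝ) * Real.log k / k

/-- `∑ |a_k|` -/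
noncomputable def NK (K Ap Am : ℕ) : ℝ := ∑ k ∈ Icc 1 K, |(aa Ap Am k : ℝ)|

/-- the tabulated part of the inner sums -/
noncomputable def VV (K Ap Am W r A N d : ℕ) : ℝ :=
  ∑ j ∈ (Ioc (A / d) (N / d)).filter (fun j => (d * j) % W = r ∧ 2 ≤ j), (ee K Ap Am j : ℝ)

theorem VV_zero {K Ap Am W r A N d : ℕ} (hc : r.Coprime W) (hd : ¬ d.Coprime W) : VV K Ap Am W r A N d = 0 :=
  sum_eq_zero fun _ hj => absurd (cop_of hc (mem_filter.1 hj).2.1) hd

theorem VV_eq {c K Ap Am W r N d : ℕ} (hr : r < W) (hc : r.Coprime W) (hd : d.Coprime W) :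
    ∃ ρ, ρ < W ∧ ρ.Coprime W ∧ (d * ρ) % W = r ∧
      VV K Ap Am W r (if c = 2 then N / 2 else 0) N d = DD c W K Ap Am ρ (N / d) := by
  obtain ⟨ρ, h1, h2, h3⟩ := cls hr hd hc
  refine ⟨ρ, h1, h2, (h3 ρ).2 (Nat.mod_eq_of_lt h1), ?_⟩
  simp only [VV, h3, DD, EE]
  generalize hn : N / d = n
  split_ifs with h
  · have : N / 2 / d = n / 2 := by rw [← hn, Nat.div_div_eq_div_mul, Nat.div_div_eq_div_mul, mul_comm]
    rw [this]
    push_cast
    rw [eq_sub_iff_add_eq, ← sum_union]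
    · refine sum_congr ?_ fun _ _ => rfl
      ext j
      simp only [mem_union, mem_filter, mem_Ioc, mem_Icc]
      omega
    · rw [disjoint_left]
      intro j h1 h2
      simp only [mem_filter, mem_Ioc, mem_Icc] at h1 h2
      omega
  · push_cast
    rw [sub_zero, Nat.zero_div]
    refine sum_congr ?_ fun _ _ => rfl
    ext j
    simp only [mem_filter, mem_Ioc, mem_Icc]
    omega

theorem th_sub (W r : ℕ) {s t : ℝ} (hst : s ≤ t) :
    th W r t - th W r s = ∑ p ∈ (Ioc ⌊s⌋₊ ⌊t⌋₊).filter (fun p => p.Prime ∧ p % W = r % W), Real.log p := by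
  have := Nat.floor_mono hst
  rw [th, th, sub_eq_iff_eq_add, ← sum_union]
  · refine sum_congr ?_ fun _ _ => rfl
    ext p
    simp only [mem_union, mem_filter, mem_Ioc, mem_Icc]
    constructor
    · rintro ⟨⟨h1, h2⟩, h3⟩
      by_cases h : p ≤ ⌊s⌋₊
      · exact Or.inr ⟨⟨h1, h⟩, h3⟩
      · exact Or.inl ⟨⟨by omega, h2⟩, h3⟩
    · rintro (⟨⟨h1, h2⟩, h3⟩ | ⟨⟨h1, h2⟩, h3⟩)
      · exact ⟨⟨by omega, h2⟩, h3⟩
      · exact ⟨⟨h1, by omega⟩, h3⟩
  · rw [disjoint_left]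
    intro j h1 h2
    simp only [mem_filter, mem_Ioc, mem_Icc] at h1 h2
    omega

theorem div_iff {c y d : ℕ} {x : ℝ} (hc : 0 < c) (hy : 0 < y) (hd : 0 < d) (hx : 0 ≤ x) :
    c * y ≤ ⌊c * x⌋₊ / d ↔ d ≤ ⌊x / y⌋₊ := by
  have hc' : (0 : ℝ) < c := by exact_mod_cast hc
  have hy' : (0 : ℝ) < y := by exact_mod_cast hy
  rw [Nat.le_div_iff_mul_le hd, Nat.le_floor_iff (by positivity), Nat.le_floor_iff (by positivity), le_div_iff₀ hy']
  push_cast
  rw [mul_assoc, mul_le_mul_iff_right₀ hc', mul_comm]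

theorem block {c K Ap Am W r s0 s1 sp sm : ℕ} {x B : ℝ} (hc0 : 0 < c) (hr : r < W) (hc : r.Coprime W) (hx : 0 ≤ x)
    (hT : Blk c W K Ap Am s0 s1 sp sm) (h0 : 0 < s0) (h1 : s0 ≤ s1) (hB0 : 0 ≤ B)
    (hB : ∀ ρ, ρ < W → ρ.Coprime W → th W ρ (x / (s0 * W : ℕ)) - th W ρ (x / (s1 * W : ℕ)) ≤ B) :
    ∑ d ∈ (Ioc 0 ⌊c * x⌋₊).filter (fun d => d.Prime ∧ c * s0 * W ≤ ⌊c * x⌋₊ / d ∧ ⌊c * x⌋₊ / d < c * s1 * W),
        Λ d * VV K Ap Am W r (if c = 2 then ⌊c * x⌋₊ / 2 else 0) ⌊c * x⌋₊ d ≤ sp * B ∧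
      -(sm * B) ≤ ∑ d ∈ (Ioc 0 ⌊c * x⌋₊).filter
          (fun d => d.Prime ∧ c * s0 * W ≤ ⌊c * x⌋₊ / d ∧ ⌊c * x⌋₊ / d < c * s1 * W),
        Λ d * VV K Ap Am W r (if c = 2 then ⌊c * x⌋₊ / 2 else 0) ⌊c * x⌋₊ d := by
  obtain ⟨M, m, hM, -, hp, hm⟩ := hT
  have hW : 0 < W := by omega
  set S := (Ioc 0 ⌊c * x⌋₊).filter
    (fun d => d.Prime ∧ c * s0 * W ≤ ⌊c * x⌋₊ / d ∧ ⌊c * x⌋₊ / d < c * s1 * W) with hS
  set Φ := (range W).filter (fun r => r.Coprime W) with hΦ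
  have key : ∀ (M : ℕ → ℕ) (sp : ℕ) (V : ℕ → ℝ), ∑ ρ ∈ Φ, M ρ ≤ sp →
      (∀ d ∈ S, V d ≤ 0 ∨ ∃ ρ ∈ Φ, (d * ρ) % W = r ∧ V d ≤ M ρ) → ∑ d ∈ S, Λ d * V d ≤ sp * B := by
    intro M sp V hp hV
    calc ∑ d ∈ S, Λ d * V d ≤ ∑ d ∈ S, ∑ ρ ∈ Φ, M ρ * (if (d * ρ) % W = r then Λ d else 0) := by
          refine sum_le_sum fun d hd => ?_
          have hΛ : (0 : ℝ) ≤ Λ d := vonMangoldt_nonneg
          have hn : ∀ ρ ∈ Φ, (0 : ℝ) ≤ M ρ * (if (d * ρ) % W = r then Λ d else 0) := fun ρ _ => by positivity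
          rcases hV d hd with h | ⟨ρ, h2, h3, h4⟩
          · exact (mul_nonpos_of_nonneg_of_nonpos hΛ h).trans (sum_nonneg hn)
          · refine le_trans ?_ (single_le_sum hn h2)
            rw [if_pos h3, mul_comm]
            exact mul_le_mul_of_nonneg_right h4 hΛ
      _ = ∑ ρ ∈ Φ, M ρ * ∑ d ∈ S, (if (d * ρ) % W = r then Λ d else 0) := by
          rw [sum_comm]; simp only [mul_sum]
      _ ≤ ∑ ρ ∈ Φ, M ρ * B := by
          refine sum_le_sum fun ρ hρ => mul_le_mul_of_nonneg_left ?_ (Nat.cast_nonneg _)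
          obtain ⟨ρ', h2, h3, h4⟩ := cls hr (mem_filter.1 hρ).2 hc
          refine le_trans ?_ (hB ρ' h2 h3)
          have hy0 : 0 < s0 * W := Nat.mul_pos h0 hW
          have hy1 : 0 < s1 * W := Nat.mul_pos (by omega) hW
          rw [th_sub W ρ' (div_le_div_of_nonneg_left hx (by exact_mod_cast hy0)
            (by exact_mod_cast Nat.mul_le_mul_right W h1)), ← sum_filter]
          refine le_trans (le_of_eq (sum_congr rfl fun d hd => ?_)) (sum_le_sum_of_subset_of_nonneg ?_ ?_)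
          · exact vonMangoldt_apply_prime (mem_filter.1 (mem_filter.1 hd).1).2.1
          · intro d hd
            simp only [hS, mem_filter, mem_Ioc] at hd ⊢
            obtain ⟨⟨⟨h5, -⟩, h6, h7, h8⟩, h9⟩ := hd
            rw [mul_assoc, div_iff hc0 hy0 h5 hx] at h7
            rw [mul_assoc, ← not_le, div_iff hc0 hy1 h5 hx, not_le] at h8
            exact ⟨⟨h8, h7⟩, h6, by rw [Nat.mod_eq_of_lt h2, ← h4, mul_comm]; exact h9⟩
          · intro p _ _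
            exact log_natCast_nonneg p
      _ ≤ sp * B := by
          rw [← sum_mul]
          exact mul_le_mul_of_nonneg_right (by exact_mod_cast hp) hB0
  refine ⟨key M sp _ hp fun d hd => ?_, ?_⟩
  · by_cases h : d.Coprime W
    · obtain ⟨ρ, h2, h3, h4, h5⟩ := VV_eq (c := c) (K := K) (Ap := Ap) (Am := Am) (N := ⌊c * x⌋₊) hr hc h
      refine Or.inr ⟨ρ, mem_filter.2 ⟨mem_range.2 h2, h3⟩, h4, ?_⟩
      rw [h5]
      exact_mod_cast (hM ρ _ h2 h3 (mem_filter.1 hd).2.2.1 (mem_filter.1 hd).2.2.2).2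
    · exact Or.inl (VV_zero hc h).le
  · have := key m sm (fun d => -VV K Ap Am W r (if c = 2 then ⌊c * x⌋₊ / 2 else 0) ⌊c * x⌋₊ d) hm fun d hd => ?_
    · simp only [mul_neg, sum_neg_distrib] at this
      linarith
    · by_cases h : d.Coprime W
      · obtain ⟨ρ, h2, h3, h4, h5⟩ := VV_eq (c := c) (K := K) (Ap := Ap) (Am := Am) (N := ⌊c * x⌋₊) hr hc h
        refine Or.inr ⟨ρ, mem_filter.2 ⟨mem_range.2 h2, h3⟩, h4, ?_⟩
        rw [h5, neg_le]
        exact_mod_cast (hM ρ _ h2 h3 (mem_filter.1 hd).2.2.1 (mem_filter.1 hd).2.2.2).1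
      · exact Or.inl (by rw [VV_zero hc h, neg_zero])

theorem block_abs {c K Ap Am W r s0 s1 sp sm N d : ℕ} (hr : r < W) (hc : r.Coprime W)
    (hT : Blk c W K Ap Am s0 s1 sp sm) (h0 : c * s0 * W ≤ N / d) (h1 : N / d < c * s1 * W) :
    |VV K Ap Am W r (if c = 2 then N / 2 else 0) N d| ≤ 160 ∧
      (sp = 0 → sm = 0 → VV K Ap Am W r (if c = 2 then N / 2 else 0) N d = 0) := by
  obtain ⟨M, m, hM, hb, hp, hm⟩ := hT
  by_cases h : d.Coprime W
  · obtain ⟨ρ, h2, h3, -, h5⟩ := VV_eq (c := c) (K := K) (Ap := Ap) (Am := Am) (N := N) hr hc h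
    have h6 := hM ρ _ h2 h3 h0 h1
    have h7 := hb ρ h2 h3
    have hρ : ρ ∈ (range W).filter (fun r => r.Coprime W) := mem_filter.2 ⟨mem_range.2 h2, h3⟩
    have h8 := (single_le_sum (f := M) (fun _ _ => Nat.zero_le _) hρ).trans hp
    have h9 := (single_le_sum (f := m) (fun _ _ => Nat.zero_le _) hρ).trans hm
    rw [h5]
    refine ⟨?_, fun e1 e2 => ?_⟩
    · have : |DD c W K Ap Am ρ (N / d)| ≤ 160 := by rw [abs_le]; omega
      exact_mod_cast this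
    · have : DD c W K Ap Am ρ (N / d) = 0 := by omega
      exact_mod_cast this
  · rw [VV_zero hc h]; simp

/-- last row of a chain -/
def lastR : ℕ → List (ℕ × ℕ × ℕ) → ℕ
  | s, [] => s
  | _, b :: t => lastR b.1 t

theorem lastR_realised : True := by have := @lastR.eq_def; trivial

/-- `∑ sp β` -/
def sumP (β : ℕ → ℕ → ℕ) : ℕ → List (ℕ × ℕ × ℕ) → ℕ
  | _, [] => 0
  | s, b :: t => b.2.1 * β s b.1 + sumP β b.1 t

theorem sumP_realised : True := by have := @sumP.eq_def; trivial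

/-- `∑ sm β` -/
def sumM (β : ℕ → ℕ → ℕ) : ℕ → List (ℕ × ℕ × ℕ) → ℕ
  | _, [] => 0
  | s, b :: t => b.2.2 * β s b.1 + sumM β b.1 t

theorem sumM_realised : True := by have := @sumM.eq_def; trivial

/-- all blocks pass the test -/
def allOk (ok : ℕ → ℕ → Bool) : ℕ → List (ℕ × ℕ × ℕ) → Bool
  | _, [] => true
  | s, b :: t => decide (s < b.1) && ok s b.1 && allOk ok b.1 t

theorem allOk_realised : True := by have := @allOk.eq_def; trivial

theorem le_lastR (ok : ℕ → ℕ → Bool) : ∀ (t : List (ℕ × ℕ × ℕ)) (s : ℕ), allOk ok s t = true → s ≤ lastR s t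
  | [], _, _ => le_rfl
  | b :: t, s, h => by
    simp only [allOk, Bool.and_eq_true, decide_eq_true_eq] at h
    exact h.1.1.le.trans (le_lastR ok t b.1 h.2)

theorem chain {c K Ap Am W r : ℕ} {x U : ℝ} (hc0 : 0 < c) (hr : r < W) (hc : r.Coprime W) (hx : 0 ≤ x) (hU : 0 ≤ U)
    (β : ℕ → ℕ → ℕ) (ok : ℕ → ℕ → Bool)
    (hB : ∀ s0 s1, 0 < s0 → s0 < s1 → ok s0 s1 = true → ∀ ρ, ρ < W → ρ.Coprime W →
      th W ρ (x / (s0 * W : ℕ)) - th W ρ (x / (s1 * W : ℕ)) ≤ β s0 s1 * U) :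
    ∀ (t : List (ℕ × ℕ × ℕ)) (s : ℕ), 0 < s → Tab c W K Ap Am s t → allOk ok s t = true →
      (∑ d ∈ (Ioc 0 ⌊c * x⌋₊).filter
          (fun d => d.Prime ∧ c * s * W ≤ ⌊c * x⌋₊ / d ∧ ⌊c * x⌋₊ / d < c * lastR s t * W),
        Λ d * VV K Ap Am W r (if c = 2 then ⌊c * x⌋₊ / 2 else 0) ⌊c * x⌋₊ d ≤ sumP β s t * U ∧
      -(sumM β s t * U) ≤ ∑ d ∈ (Ioc 0 ⌊c * x⌋₊).filter
          (fun d => d.Prime ∧ c * s * W ≤ ⌊c * x⌋₊ / d ∧ ⌊c * x⌋₊ / d < c * lastR s t * W),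
        Λ d * VV K Ap Am W r (if c = 2 then ⌊c * x⌋₊ / 2 else 0) ⌊c * x⌋₊ d) ∧
      ∀ d, c * s * W ≤ ⌊c * x⌋₊ / d → ⌊c * x⌋₊ / d < c * lastR s t * W →
        |VV K Ap Am W r (if c = 2 then ⌊c * x⌋₊ / 2 else 0) ⌊c * x⌋₊ d| ≤ 160
  | [], s, _, _, _ => by
    refine ⟨?_, fun d h1 h2 => absurd h1 (not_le.2 h2)⟩
    rw [sum_eq_zero fun d hd => absurd (mem_filter.1 hd).2.2.1 (not_le.2 (mem_filter.1 hd).2.2.2)]
    simp [sumP, sumM]
  | b :: t, s, hs, hT, hok => by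
    simp only [allOk, Bool.and_eq_true, decide_eq_true_eq] at hok
    obtain ⟨⟨h1, h2⟩, h3⟩ := hok
    obtain ⟨ih1, ih2⟩ := chain hc0 hr hc hx hU β ok hB t b.1 (by omega) hT.2 h3
    have hb := block hc0 hr hc hx hT.1 hs h1.le (by positivity) (hB s b.1 hs h1 h2)
    have m1 : c * s * W ≤ c * b.1 * W := Nat.mul_le_mul_right _ (Nat.mul_le_mul_left _ h1.le)
    have m2 : c * b.1 * W ≤ c * lastR b.1 t * W :=
      Nat.mul_le_mul_right _ (Nat.mul_le_mul_left _ (le_lastR ok t _ h3))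
    refine ⟨?_, fun d h4 h5 => ?_⟩
    · rw [← sum_filter_add_sum_filter_not _ (fun d => ⌊c * x⌋₊ / d < c * b.1 * W), filter_filter, filter_filter]
      have e1 : (Ioc 0 ⌊c * x⌋₊).filter (fun d => (d.Prime ∧ c * s * W ≤ ⌊c * x⌋₊ / d ∧
          ⌊c * x⌋₊ / d < c * lastR s (b :: t) * W) ∧ ⌊c * x⌋₊ / d < c * b.1 * W) = (Ioc 0 ⌊c * x⌋₊).filter
          (fun d => d.Prime ∧ c * s * W ≤ ⌊c * x⌋₊ / d ∧ ⌊c * x⌋₊ / d < c * b.1 * W) :=
        filter_congr fun d _ => ⟨fun h => ⟨h.1.1, h.1.2.1, h.2⟩, fun h => ⟨⟨h.1, h.2.1, h.2.2.trans_le m2⟩, h.2.2⟩⟩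
      have e2 : (Ioc 0 ⌊c * x⌋₊).filter (fun d => (d.Prime ∧ c * s * W ≤ ⌊c * x⌋₊ / d ∧
          ⌊c * x⌋₊ / d < c * lastR s (b :: t) * W) ∧ ¬ ⌊c * x⌋₊ / d < c * b.1 * W) = (Ioc 0 ⌊c * x⌋₊).filter
          (fun d => d.Prime ∧ c * b.1 * W ≤ ⌊c * x⌋₊ / d ∧ ⌊c * x⌋₊ / d < c * lastR b.1 t * W) :=
        filter_congr fun d _ => ⟨fun h => ⟨h.1.1, not_lt.1 h.2, h.1.2.2⟩,
          fun h => ⟨⟨h.1, m1.trans h.2.1, h.2.2⟩, not_lt.2 h.2.1⟩⟩
      rw [e1, e2]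
      simp only [sumP, sumM]
      push_cast
      constructor <;> linarith [hb.1, hb.2, ih1.1, ih1.2]
    · by_cases h : ⌊c * x⌋₊ / d < c * b.1 * W
      · exact (block_abs hr hc hT.1 h4 h).1
      · exact ih2 d (not_lt.1 h) h5

theorem sum_le_psi (N : ℕ) (t : ℝ) : ∑ d ∈ Ioc 0 N, (if d ≤ ⌊t⌋₊ then (Λ d : ℝ) else 0) ≤ ψ t := by
  rw [← sum_filter, Chebyshev.psi]
  refine sum_le_sum_of_subset_of_nonneg (fun d hd => ?_) fun _ _ _ => vonMangoldt_nonneg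
  simp only [mem_filter, mem_Ioc] at hd ⊢
  exact ⟨hd.1.1, hd.2⟩

theorem sum_le_psi_sub (N : ℕ) (t : ℝ) :
    ∑ d ∈ Ioc 0 N, (if ¬ d.Prime ∧ d ≤ ⌊t⌋₊ then (Λ d : ℝ) else 0) ≤ ψ t - θ t := by
  rw [← sum_filter, Chebyshev.psi_sub_theta_eq_sum_not_prime]
  refine sum_le_sum_of_subset_of_nonneg (fun d hd => ?_) fun _ _ _ => vonMangoldt_nonneg
  simp only [mem_filter, mem_Ioc] at hd ⊢
  exact ⟨⟨hd.1.1, hd.2.2⟩, hd.2.1⟩

/-- the error terms of the master inequality -/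
noncomputable def Er (c K Ap Am W s0 s1 : ℕ) (x : ℝ) : ℝ :=
  (NK K Ap Am + |sg K Ap Am|) * (Real.log (c * x) + 1) + 160 * (ψ (x / (s0 * W : ℕ)) - θ (x / (s0 * W : ℕ))) +
    |sg K Ap Am| * (s1 + 1) * ψ (c * x) + (NK K Ap Am + |sg K Ap Am| + 1) * ψ (x / (s1 * W : ℕ))

theorem master {c K Ap Am W r s0 : ℕ} {t : List (ℕ × ℕ × ℕ)} {x U : ℝ} (hc12 : c = 1 ∨ c = 2) (hr : r < W)
    (hc : r.Coprime W) (hK : 1 ≤ K) (hx : (K : ℝ) ≤ x) (hU : 0 ≤ U) (ha1 : aa Ap Am 1 = 1)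
    (hco : ∀ k ∈ Icc 1 K, aa Ap Am k ≠ 0 → k.Coprime W) (β : ℕ → ℕ → ℕ) (ok : ℕ → ℕ → Bool)
    (hB : ∀ s0 s1, 0 < s0 → s0 < s1 → ok s0 s1 = true → ∀ ρ, ρ < W → ρ.Coprime W →
      th W ρ (x / (s0 * W : ℕ)) - th W ρ (x / (s1 * W : ℕ)) ≤ β s0 s1 * U)
    (hs0 : 0 < s0) (hT : Tab c W K Ap Am 0 ((s0, 0, 0) :: t)) (hok : allOk ok s0 t = true) :
    x * LL K Ap Am / W - sumP β s0 t * U - Er c K Ap Am W s0 (lastR s0 t) x - (ψ (c * x) - θ (c * x)) ≤
        th W r (c * x) - th W r ((c - 1) * x) ∧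
      th W r (c * x) - th W r ((c - 1) * x) ≤
        x * LL K Ap Am / W + sumM β s0 t * U + Er c K Ap Am W s0 (lastR s0 t) x := by
  have hK' : (1 : ℝ) ≤ K := by exact_mod_cast hK
  have hx0 : 0 ≤ x := by linarith
  have hc0 : 0 < c := by omega
  have hW : 0 < W := by omega
  have hW' : (0 : ℝ) < W := by exact_mod_cast hW
  set σ := sg K Ap Am with hσ
  set s1 := lastR s0 t with hs1
  have hs01 : s0 ≤ s1 := le_lastR ok t s0 hok
  let a : ℕ → ℝ := fun k => (aa Ap Am k : ℝ) - if k = 1 then σ else 0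
  have h1K : 1 ∈ Icc 1 K := mem_Icc.2 ⟨le_rfl, hK⟩
  have hco' : ∀ k ∈ Icc 1 K, a k ≠ 0 → k.Coprime W := by
    intro k hk h
    by_cases h1 : k = 1
    · simp [h1]
    · refine hco k hk fun h2 => h ?_
      simp [a, h1, h2]
  have h0 : ∑ k ∈ Icc 1 K, a k / k = 0 := by
    have : ∀ k ∈ Icc 1 K, a k / k = (aa Ap Am k : ℝ) / k - if k = 1 then σ else 0 := by
      intro k _
      by_cases h1 : k = 1 <;> simp [a, h1]
    rw [sum_congr rfl this, sum_sub_distrib, sum_ite_eq', if_pos h1K]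
    exact sub_self _
  have hA : ∑ k ∈ Icc 1 K, |a k| ≤ NK K Ap Am + |σ| := by
    have : ∀ k ∈ Icc 1 K, |a k| ≤ |(aa Ap Am k : ℝ)| + if k = 1 then |σ| else 0 := by
      intro k _
      by_cases h1 : k = 1
      · simp only [a, if_pos h1]; exact abs_sub _ _
      · simp [a, h1]
    refine (sum_le_sum this).trans ?_
    rw [sum_add_distrib, sum_ite_eq', if_pos h1K, NK]
  have hL : -∑ k ∈ Icc 1 K, a k * Real.log k / k = LL K Ap Am := by
    rw [LL]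
    congr 1
    refine sum_congr rfl fun k _ => ?_
    by_cases h1 : k = 1 <;> simp [a, h1]
  have hu : ((c : ℝ) - 1) * x = 0 ∨ (K : ℝ) ≤ (c - 1) * x := by
    rcases hc12 with rfl | rfl
    · left; simp
    · right; norm_num; exact hx
  have hu0 : 0 ≤ ((c : ℝ) - 1) * x := by rcases hu with h | h <;> linarith
  have huX : ((c : ℝ) - 1) * x ≤ c * x := by linarith
  have hcx : x ≤ c * x := le_mul_of_one_le_left hx0 (by exact_mod_cast hc0)
  have hfl : ⌊((c : ℝ) - 1) * x⌋₊ = if c = 2 then ⌊c * x⌋₊ / 2 else 0 := by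
    rcases hc12 with rfl | rfl
    · simp
    · rw [if_pos rfl, ← Nat.floor_div_natCast]
      congr 1
      push_cast; ring
  have hm := main_term hr hc hco' h0 hu huX (hx.trans hcx)
  have hUU := fun d (hd : 0 < d) => UU_le hr hc hco' h0 hu0 huX hd
  have hC := fun d (hd : d.Coprime W) (hd0 : 0 < d) => card_le hr hc hu0 huX hd hd0
  have hth := th_sub W r huX
  rw [hL, show (c : ℝ) * x - (c - 1) * x = x by ring] at hm
  rw [show (c : ℝ) * x - (c - 1) * x = x by ring] at hC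
  obtain ⟨hch, hab⟩ := chain hc0 hr hc hx0 hU β ok hB t s0 hs0 hT.2 hok
  rw [hfl] at hm hUU hC hth
  rw [← hs1] at hch hab
  set N := ⌊c * x⌋₊ with hN
  set A := if c = 2 then N / 2 else 0 with hAA
  let I : ℕ → ℝ := fun d => if A < d ∧ d ≤ N ∧ d % W = r then 1 else 0
  have hsplit : ∀ d, 0 < d → UU a K W r A N d = I d + VV K Ap Am W r A N d -
      σ * (((Ioc (A / d) (N / d)).filter (fun j => (d * j) % W = r)).card : ℝ) := by
    intro d hd
    have e1 : ∀ j ∈ (Ioc (A / d) (N / d)).filter (fun j => (d * j) % W = r),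
        ∑ k ∈ (Icc 1 K).filter (fun k => k ∣ j), a k = (ee K Ap Am j : ℝ) - σ := by
      intro j _
      simp only [a, ee]
      rw [sum_sub_distrib, sum_ite_eq', if_pos (show 1 ∈ (Icc 1 K).filter (fun k => k ∣ j) from mem_filter.2 ⟨h1K, one_dvd _⟩)]
      push_cast; rfl
    rw [UU, sum_congr rfl e1, sum_sub_distrib, sum_const, nsmul_eq_mul, mul_comm _ σ,
      ← sum_filter_add_sum_filter_not _ (fun j => 2 ≤ j), filter_filter, filter_filter, add_comm]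
    congr 2
    have e2 : ee K Ap Am 1 = 1 := by
      rw [ee, ← ha1]
      refine sum_eq_single_of_mem 1 (mem_filter.2 ⟨h1K, one_dvd _⟩) fun k hk h => ?_
      exact absurd (Nat.dvd_one.1 (mem_filter.1 hk).2) h
    simp only [I]
    split_ifs with h
    · rw [sum_eq_single_of_mem 1]
      · rw [e2]; simp
      · simp only [mem_filter, mem_Ioc, Nat.div_lt_iff_lt_mul hd, Nat.le_div_iff_mul_le hd, one_mul, mul_one]
        exact ⟨⟨h.1, h.2.1⟩, h.2.2, by omega⟩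
      · intro j hj h1
        simp only [mem_filter, mem_Ioc] at hj
        have := Nat.zero_lt_of_lt hj.1.1
        omega
    · refine sum_eq_zero fun j hj => ?_
      simp only [mem_filter, mem_Ioc] at hj
      have := Nat.zero_lt_of_lt hj.1.1
      have : j = 1 := by omega
      subst this
      simp only [Nat.div_lt_iff_lt_mul hd, Nat.le_div_iff_mul_le hd, one_mul, mul_one] at hj
      exact absurd ⟨hj.1.1, hj.1.2, hj.2.1⟩ h
  have hy0 : 0 < s0 * W := Nat.mul_pos hs0 hW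
  have hy1 : 0 < s1 * W := Nat.mul_pos (by omega) hW
  have hpt : ∀ d ∈ Ioc 0 N, |Λ d * UU a K W r A N d - Λ d * I d -
      (if d.Prime ∧ c * s0 * W ≤ N / d ∧ N / d < c * s1 * W then Λ d * VV K Ap Am W r A N d else 0)| ≤
      160 * (if ¬ d.Prime ∧ d ≤ ⌊x / (s0 * W : ℕ)⌋₊ then (Λ d : ℝ) else 0) + |σ| * (s1 + 1) * Λ d +
        (NK K Ap Am + |σ| + 1) * (if d ≤ ⌊x / (s1 * W : ℕ)⌋₊ then (Λ d : ℝ) else 0) := by
    intro d hd
    have hd0 := (mem_Ioc.1 hd).1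
    have hΛ : (0 : ℝ) ≤ Λ d := vonMangoldt_nonneg
    have i0 := div_iff hc0 hy0 hd0 hx0
    have i1 := div_iff hc0 hy1 hd0 hx0
    rw [← hN, ← mul_assoc] at i0 i1
    have hNK : 0 ≤ NK K Ap Am := sum_nonneg fun _ _ => abs_nonneg _
    have p1 : 0 ≤ 160 * (if ¬ d.Prime ∧ d ≤ ⌊x / (s0 * W : ℕ)⌋₊ then (Λ d : ℝ) else 0) := by positivity
    have p2 : 0 ≤ |σ| * (s1 + 1) * Λ d := by positivity
    by_cases ht : c * s1 * W ≤ N / d
    · rw [if_neg (c := d.Prime ∧ _) (fun h => absurd ht (not_le.2 h.2.2)), if_pos (i1.1 ht), sub_zero, ← mul_sub, abs_mul,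
        abs_of_nonneg hΛ]
      have q1 : |I d| ≤ 1 := by simp only [I]; split_ifs <;> simp
      have q2 := (abs_sub _ _).trans (add_le_add ((hUU d hd0).trans hA) q1)
      nlinarith
    · rw [if_neg (fun h => ht (i1.2 h)), mul_zero, add_zero]
      have q1 : |σ * (((Ioc (A / d) (N / d)).filter (fun j => (d * j) % W = r)).card : ℝ)| ≤ |σ| * (s1 + 1) := by
        rw [abs_mul]
        refine mul_le_mul_of_nonneg_left ?_ (abs_nonneg _)
        rw [abs_of_nonneg (Nat.cast_nonneg _)]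
        by_cases h : d.Coprime W
        · have q2 := (abs_le.1 (hC d h hd0)).2
          have q3 : x / (s1 * W : ℕ) < d := by
            rw [← Nat.floor_lt (by positivity), ← not_le]; exact fun h => ht (i1.2 h)
          have q4 : x / d / W ≤ s1 := by
            have : (0 : ℝ) < d := by exact_mod_cast hd0
            rw [div_lt_iff₀ (by exact_mod_cast hy1)] at q3
            rw [div_div, div_le_iff₀ (by positivity)]
            push_cast at q3; linarith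
          linarith
        · rw [filter_eq_empty_iff.2 fun j _ hj => h (cop_of hc hj)]
          simp only [card_empty, Nat.cast_zero]; positivity
      have q1' := mul_le_mul_of_nonneg_left q1 hΛ
      rw [← abs_of_nonneg hΛ, ← abs_mul, abs_of_nonneg hΛ, abs_le] at q1'
      rw [hsplit d hd0, abs_le]
      by_cases h2 : c * s0 * W ≤ N / d
      · by_cases h3 : d.Prime
        · rw [if_pos (c := d.Prime ∧ _) ⟨h3, h2, not_le.1 ht⟩]
          constructor <;> nlinarith [q1'.1, q1'.2]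
        · rw [if_neg (c := d.Prime ∧ _) (fun h => h3 h.1), if_pos ⟨h3, i0.1 h2⟩]
          have q5 := abs_le.1 (hab d h2 (not_le.1 ht))
          constructor <;> nlinarith [q1'.1, q1'.2, q5.1, q5.2]
      · rw [if_neg (c := d.Prime ∧ _) (fun h => h2 h.2.1), (block_abs hr hc hT.1 (by simp) (not_le.1 h2)).2 rfl rfl]
        constructor <;> nlinarith [q1'.1, q1'.2]
  have hsum := (abs_sum_le_sum_abs _ _).trans (sum_le_sum hpt)
  rw [sum_sub_distrib, sum_sub_distrib, sum_add_distrib, sum_add_distrib, ← mul_sum, ← mul_sum, ← mul_sum,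
    ← sum_filter] at hsum
  have b1 := sum_le_psi_sub N (x / (s0 * W : ℕ))
  have b2 : ∑ d ∈ Ioc 0 N, (Λ d : ℝ) = ψ (c * x) := rfl
  have b3 := mul_le_mul_of_nonneg_left (sum_le_psi N (x / (s1 * W : ℕ)))
    (show 0 ≤ NK K Ap Am + |σ| + 1 from by
      have : 0 ≤ NK K Ap Am := sum_nonneg fun _ _ => abs_nonneg _
      positivity)
  have b4 := mul_le_mul_of_nonneg_right hA (show 0 ≤ Real.log (c * x) + 1 from by
    have := log_nonneg (show 1 ≤ (c : ℝ) * x by linarith); linarith)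
  have b5 : ∑ d ∈ Ioc 0 N, Λ d * I d = th W r (c * x) - th W r ((c - 1) * x) +
      ∑ d ∈ Ioc 0 N, (if ¬ d.Prime ∧ A < d ∧ d % W = r then (Λ d : ℝ) else 0) := by
    rw [hth, Nat.mod_eq_of_lt hr, sum_filter, ← sum_subset (s₁ := Ioc A N) (s₂ := Ioc 0 N)
      (f := fun d => if A < d ∧ d.Prime ∧ d % W = r then Real.log d else 0) (Ioc_subset_Ioc_left (Nat.zero_le _)) (by
        intro d h1 h2
        simp only [mem_Ioc, not_and, not_le] at h1 h2
        exact if_neg fun h => absurd h1.2 (not_le.2 (h2 h.1))) |>.symm.trans (sum_congr rfl fun d hd =>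
          if_congr (and_iff_right (mem_Ioc.1 hd).1) rfl rfl), ← sum_add_distrib]
    refine sum_congr rfl fun d hd => ?_
    have := (mem_Ioc.1 hd).2
    simp only [I]
    by_cases h1 : d.Prime <;> by_cases h2 : A < d <;> by_cases h3 : d % W = r <;>
      simp [h1, h2, h3, this, vonMangoldt_apply_prime]
  have b6 : 0 ≤ ∑ d ∈ Ioc 0 N, (if ¬ d.Prime ∧ A < d ∧ d % W = r then (Λ d : ℝ) else 0) :=
    sum_nonneg fun d _ => by have : (0 : ℝ) ≤ Λ d := vonMangoldt_nonneg; positivity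
  have b7 : ∑ d ∈ Ioc 0 N, (if ¬ d.Prime ∧ A < d ∧ d % W = r then (Λ d : ℝ) else 0) ≤ ψ (c * x) - θ (c * x) := by
    refine le_trans (sum_le_sum fun d hd => ?_) (sum_le_psi_sub N (c * x))
    have : (0 : ℝ) ≤ Λ d := vonMangoldt_nonneg
    by_cases h : ¬ d.Prime ∧ A < d ∧ d % W = r
    · rw [if_pos h, if_pos ⟨h.1, (mem_Ioc.1 hd).2⟩]
    · rw [if_neg h]; positivity
  rw [b2, b5, abs_le] at hsum
  rw [abs_le] at hm
  rw [Er, ← hσ]
  constructor <;> linarith [hm.1, hm.2, hsum.1, hsum.2, hch.1, hch.2]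

end Cfsg.Agent.Depth.P
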