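import Cfsg.Agent.Depth.P.Mas
import Cfsg.Agent.Depth.S.LemS

/-!
# Depth (S5768): the numerical checkers for the elementary prime estimates
-/

set_option autoImplicit false

namespace Cfsg.Agent.Depth.P

open Finset Real
open scoped Chebyshev

/-- a term of the series for `log ((b + a)/(b - a))`, in units of `10⁻¹⁰` -/
def lgT (a b i : ℕ) : ℕ := 20000000000 * a ^ i / (i * b ^ i)

/-- lower bound for `10¹⁰ log n` -/
def lgLo (n : ℕ) : ℕ :=
  n.log2 * 6931471803 + lgT (n - 2 ^ n.log2) (n + 2 ^ n.log2) 1 + lgT (n - 2 ^ n.log2) (n + 2 ^ n.log2) 3 +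
    lgT (n - 2 ^ n.log2) (n + 2 ^ n.log2) 5 + lgT (n - 2 ^ n.log2) (n + 2 ^ n.log2) 7 +
    lgT (n - 2 ^ n.log2) (n + 2 ^ n.log2) 9

theorem div_bounds (a b : ℕ) (hb : 0 < b) : ((a / b : ℕ) : ℝ) ≤ a / b ∧ (a : ℝ) / b ≤ (a / b : ℕ) + 1 := by
  refine ⟨Nat.cast_div_le, ?_⟩
  have hb' : (0 : ℝ) < b := by exact_mod_cast hb
  rw [div_le_iff₀ hb']
  have := Nat.lt_div_mul_add (a := a) hb
  have : (a : ℝ) < (a / b : ℕ) * b + b := by exact_mod_cast this
  linarith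

theorem lgT_bounds (a b i : ℕ) (hb : 0 < b) (hi : 0 < i) :
    (lgT a b i : ℝ) ≤ 20000000000 * (((a : ℝ) / b) ^ i / i) ∧
      20000000000 * (((a : ℝ) / b) ^ i / i) ≤ lgT a b i + 1 := by
  have := div_bounds (20000000000 * a ^ i) (i * b ^ i) (by positivity)
  have e : ((20000000000 * a ^ i : ℕ) : ℝ) / (i * b ^ i : ℕ) = 20000000000 * (((a : ℝ) / b) ^ i / i) := by
    push_cast; rw [div_pow]; field_simp
  rwa [e] at this

theorem lg_bounds {n : ℕ} (hn : 1 ≤ n) :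
    (lgLo n : ℝ) ≤ 10 ^ 10 * Real.log n ∧ (n.log2 ≤ 200 → 10 ^ 10 * Real.log n ≤ lgLo n + 130000) := by
  have h1 : 2 ^ n.log2 ≤ n := Nat.log2_self_le (by omega)
  have h2 : n < 2 ^ (n.log2 + 1) := Nat.lt_log2_self
  rw [lgLo]
  generalize n.log2 = k at h1 h2
  have hp : (0 : ℝ) < 2 ^ k := by positivity
  have h1' : (2 : ℝ) ^ k ≤ n := by exact_mod_cast h1
  have h2' : (n : ℝ) ≤ 2 * 2 ^ k := by rw [pow_succ'] at h2; exact_mod_cast h2.le
  have hb : 0 < n + 2 ^ k := by omega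
  have t := fun i hi => lgT_bounds (n - 2 ^ k) (n + 2 ^ k) i hb hi
  set x : ℝ := ((n - 2 ^ k : ℕ) : ℝ) / (n + 2 ^ k : ℕ) with hx
  have hx' : x = (n - 2 ^ k) / (n + 2 ^ k) := by rw [hx, Nat.cast_sub h1]; push_cast; rfl
  have hx0 : 0 ≤ x := by positivity
  have hx1 : x ≤ 1 / 3 := by rw [hx', div_le_iff₀ (by linarith)]; linarith
  have e : Real.log ((1 + x) / (1 - x)) = Real.log n - k * Real.log 2 := by
    rw [← log_pow, ← log_div (by linarith) hp.ne']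
    congr 1
    rw [hx']; field_simp; ring
  have l1 := sum_range_le_log_div hx0 (by linarith) 5
  have l2 := log_div_le_sum_range_add hx0 (by linarith) 5
  rw [e] at l1 l2
  have l3 : x ^ (2 * 5 + 1) / (1 - x ^ 2) ≤ 0.0000064 := by
    have : x ^ 11 ≤ (1 / 3) ^ 11 := pow_le_pow_left₀ hx0 hx1 _
    have : x ^ 2 ≤ (1 / 3) ^ 2 := pow_le_pow_left₀ hx0 hx1 _
    rw [div_le_iff₀ (by linarith)]; norm_num at *; linarith
  have t1 := t 1 (by norm_num)
  have t3 := t 3 (by norm_num)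
  have t5 := t 5 (by norm_num)
  have t7 := t 7 (by norm_num)
  have t9 := t 9 (by norm_num)
  have a1 := mul_le_mul_of_nonneg_left Real.log_two_gt_d9.le (Nat.cast_nonneg (α := ℝ) k)
  have a2 := mul_le_mul_of_nonneg_left Real.log_two_lt_d9.le (Nat.cast_nonneg (α := ℝ) k)
  simp only [sum_range_succ, range_zero, sum_empty] at l1 l2
  norm_num at l1 l2 t1 t3 t5 t7 t9 l3
  push_cast
  refine ⟨by linarith [t1.1, t3.1, t5.1, t7.1, t9.1], fun hk => ?_⟩
  have : (k : ℝ) ≤ 200 := by exact_mod_cast hk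
  linarith [t1.2, t3.2, t5.2, t7.2, t9.2]

/-- binary summation over `[lo, lo + 2^d)` -/
def smB (f : ℕ → ℕ) : ℕ → ℕ → ℕ
  | 0, lo => f lo
  | d + 1, lo => smB f d lo + smB f d (lo + 2 ^ d)

theorem smB_realised : True := by have := @smB.eq_def; trivial

theorem smB_eq (f : ℕ → ℕ) : ∀ d lo, smB f d lo = ∑ k ∈ Ico lo (lo + 2 ^ d), f k
  | 0, lo => by simp [smB]
  | d + 1, lo => by
    rw [smB, smB_eq f d, smB_eq f d, sum_Ico_consecutive _ (Nat.le_add_right _ _) (Nat.le_add_right _ _), pow_succ,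
      mul_two, add_assoc]

/-- sum over the bits of a mask -/
def sA (A K d : ℕ) (g : ℕ → ℕ) : ℕ := smB (fun k => bif Nat.ble k K && A.testBit k then g k else 0) d 1

theorem sA_eq {A K d : ℕ} (h : K ≤ 2 ^ d) (g : ℕ → ℕ) :
    sA A K d g = ∑ k ∈ Icc 1 K, if A.testBit k then g k else 0 := by
  rw [sA, smB_eq]
  symm
  refine sum_subset_zero_on_sdiff (fun k hk => ?_) (fun k hk => ?_) fun k hk => ?_
  · simp only [mem_Icc, mem_Ico] at hk ⊢; omega
  · simp only [mem_sdiff, mem_Icc, mem_Ico] at hk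
    have : Nat.ble k K = false := by rw [← Bool.not_eq_true, Nat.ble_eq]; omega
    simp [this]
  · have : Nat.ble k K = true := by rw [Nat.ble_eq]; exact (mem_Icc.1 hk).2
    simp [this]

/-- facts on the coefficients; `Llo`, `Lup` in units of `10⁻⁶` -/
def Facts (W K Ap Am nk Llo Lup : ℕ) : Prop :=
  aa Ap Am 1 = 1 ∧ (∀ k ∈ Icc 1 K, aa Ap Am k ≠ 0 → k.Coprime W) ∧ NK K Ap Am ≤ nk ∧ |sg K Ap Am| ≤ 1 / 10 ^ 13 ∧
    (Llo : ℝ) / 10 ^ 6 ≤ LL K Ap Am ∧ LL K Ap Am ≤ (Lup : ℝ) / 10 ^ 6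

/-- facts on one mask -/
def chkM (W K d A n s l : ℕ) : Bool :=
  Nat.ble (sA A K d fun k => bif Nat.beq (Nat.gcd k W) 1 then 1 else 1000000) n &&
  Nat.beq (sA A K d fun k => 100000000000000000000 / k) s &&
  Nat.beq (sA A K d fun k => lgLo k * 10000000000 / k) l

theorem chkM_sound {W K d A n s l : ℕ} (hd : K ≤ 2 ^ d) (hd' : d ≤ 100) (hn : n < 1000000)
    (hs : s ≤ 3 * 10 ^ 20) (h : chkM W K d A n s l = true) :
    (∀ k ∈ Icc 1 K, A.testBit k → k.Coprime W) ∧ ∑ k ∈ Icc 1 K, (if A.testBit k then (1 : ℝ) else 0) ≤ n ∧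
      (s : ℝ) ≤ 10 ^ 20 * ∑ k ∈ Icc 1 K, (if A.testBit k then (1 : ℝ) else 0) / k ∧
      10 ^ 20 * ∑ k ∈ Icc 1 K, (if A.testBit k then (1 : ℝ) else 0) / k ≤ s + n ∧
      (l : ℝ) ≤ 10 ^ 20 * ∑ k ∈ Icc 1 K, (if A.testBit k then (1 : ℝ) else 0) * Real.log k / k ∧
      10 ^ 20 * ∑ k ∈ Icc 1 K, (if A.testBit k then (1 : ℝ) else 0) * Real.log k / k ≤ l + 4 * 10 ^ 15 := by
  simp only [chkM, Bool.and_eq_true, Nat.ble_eq, Nat.beq_eq, sA_eq hd] at h
  obtain ⟨⟨h1, h2⟩, h3⟩ := h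
  have c1 : ∀ k ∈ Icc 1 K, A.testBit k → k.Coprime W := by
    intro k hk hb
    have := (single_le_sum (f := fun k => if A.testBit k then
      (bif Nat.beq (Nat.gcd k W) 1 then 1 else 1000000) else 0) (fun _ _ => Nat.zero_le _) hk).trans h1
    by_contra hc
    have e : Nat.beq (Nat.gcd k W) 1 = false := by rw [← Bool.not_eq_true, Nat.beq_eq]; exact hc
    simp [hb, e] at this
    omega
  have c2 : ∑ k ∈ Icc 1 K, (if A.testBit k then (1 : ℝ) else 0) ≤ n := by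
    have : ∑ k ∈ Icc 1 K, (if A.testBit k then 1 else 0) ≤ n := by
      refine le_trans (sum_le_sum fun k _ => ?_) h1
      split_ifs
      · cases Nat.beq (Nat.gcd k W) 1 <;> simp
      · rfl
    exact_mod_cast this
  have c3 : (s : ℝ) ≤ 10 ^ 20 * ∑ k ∈ Icc 1 K, (if A.testBit k then (1 : ℝ) else 0) / k := by
    rw [← h2, mul_sum]
    push_cast
    refine sum_le_sum fun k hk => ?_
    have := (div_bounds 100000000000000000000 k (mem_Icc.1 hk).1).1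
    split_ifs
    · refine this.trans (le_of_eq ?_); push_cast; ring
    · simp
  have c4 : 10 ^ 20 * ∑ k ∈ Icc 1 K, (if A.testBit k then (1 : ℝ) else 0) / k ≤ s + n := by
    refine le_trans ?_ (add_le_add_right c2 _)
    rw [← h2, mul_sum]
    push_cast
    rw [← sum_add_distrib]
    refine sum_le_sum fun k hk => ?_
    have := (div_bounds 100000000000000000000 k (mem_Icc.1 hk).1).2
    split_ifs
    · refine le_trans (le_of_eq ?_) this; push_cast; ring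
    · simp
  refine ⟨c1, c2, c3, c4, ?_, ?_⟩
  · rw [← h3, mul_sum]
    push_cast
    refine sum_le_sum fun k hk => ?_
    have hk1 := (mem_Icc.1 hk).1
    have := (div_bounds (lgLo k * 10000000000) k hk1).1
    have h4 := (lg_bounds hk1).1
    split_ifs
    · refine this.trans ?_
      rw [← mul_div_assoc]
      push_cast
      exact div_le_div_of_nonneg_right (by linarith) (Nat.cast_nonneg _)
    · simp
  · have : 10 ^ 20 * ∑ k ∈ Icc 1 K, (if A.testBit k then (1 : ℝ) else 0) * Real.log k / k ≤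
        l + ∑ k ∈ Icc 1 K, (if A.testBit k then (1 : ℝ) else 0) +
          13 * 10 ^ 14 * ∑ k ∈ Icc 1 K, (if A.testBit k then (1 : ℝ) else 0) / k := by
      rw [← h3, mul_sum, mul_sum]
      push_cast
      rw [← sum_add_distrib, ← sum_add_distrib]
      refine sum_le_sum fun k hk => ?_
      have hk1 := (mem_Icc.1 hk).1
      have := (div_bounds (lgLo k * 10000000000) k hk1).2
      have h4 := (lg_bounds hk1).2 (by
        have h5 : k < 2 ^ 201 := lt_of_le_of_lt ((mem_Icc.1 hk).2.trans hd) (Nat.pow_lt_pow_right (by norm_num) (by omega))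
        have := (Nat.log2_lt (by omega)).2 h5
        omega)
      split_ifs
      · have h5 : 10 ^ 20 * (1 * Real.log k / k) ≤ ((lgLo k * 10000000000 : ℕ) : ℝ) / k + 13 * 10 ^ 14 * (1 / k) := by
          rw [← mul_div_assoc, ← mul_div_assoc, ← add_div]
          push_cast
          gcongr
          linarith
        linarith
      · simp
    have hs' : (s : ℝ) ≤ 3 * 10 ^ 20 := by exact_mod_cast hs
    have hn' : (n : ℝ) ≤ 1000000 := by exact_mod_cast hn.le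
    linarith

theorem facts_of {W K d Ap Am np sp lp nm sm lm Llo Lup : ℕ} (hp : chkM W K d Ap np sp lp = true)
    (hm : chkM W K d Am nm sm lm = true)
    (h : (decide (K ≤ 2 ^ d) && decide (d ≤ 100) && decide (np < 1000000) && decide (nm < 1000000) &&
      decide (sp ≤ 3 * 10 ^ 20) && decide (sm ≤ 3 * 10 ^ 20) && Ap.testBit 1 && !Am.testBit 1 &&
      decide (sp + np ≤ sm + 10 ^ 7) && decide (sm + nm ≤ sp + 10 ^ 7) &&
      decide (Llo * 10 ^ 14 + lp + 4 * 10 ^ 15 ≤ lm) && decide (lm + 4 * 10 ^ 15 ≤ Lup * 10 ^ 14 + lp)) = true) :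
    Facts W K Ap Am (np + nm) Llo Lup := by
  simp only [Bool.and_eq_true, decide_eq_true_eq, Bool.not_eq_true'] at h
  obtain ⟨⟨⟨⟨⟨⟨⟨⟨⟨⟨⟨h1, h2⟩, h3⟩, h4⟩, h5⟩, h6⟩, h7⟩, h8⟩, h9⟩, h10⟩, h11⟩, h12⟩ := h
  obtain ⟨p1, p2, p3, p4, p5, p6⟩ := chkM_sound h1 h2 h3 h5 hp
  obtain ⟨m1, m2, m3, m4, m5, m6⟩ := chkM_sound h1 h2 h4 h6 hm
  have ea : ∀ k, (aa Ap Am k : ℝ) = (if Ap.testBit k then (1 : ℝ) else 0) - (if Am.testBit k then (1 : ℝ) else 0) := by
    intro k; simp [aa]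
  have h9' : (sp : ℝ) + np ≤ sm + 10 ^ 7 := by exact_mod_cast h9
  have h10' : (sm : ℝ) + nm ≤ sp + 10 ^ 7 := by exact_mod_cast h10
  have h11' : (Llo : ℝ) * 10 ^ 14 + lp + 4 * 10 ^ 15 ≤ lm := by exact_mod_cast h11
  have h12' : (lm : ℝ) + 4 * 10 ^ 15 ≤ Lup * 10 ^ 14 + lp := by exact_mod_cast h12
  refine ⟨by simp [aa, h7, h8], fun k hk h => ?_, ?_, ?_, ?_⟩
  · by_cases a1 : Ap.testBit k
    · exact p1 k hk a1
    · by_cases a2 : Am.testBit k
      · exact m1 k hk a2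
      · simp [aa, a1, a2] at h
  · push_cast
    refine le_trans ?_ (add_le_add p2 m2)
    rw [← sum_add_distrib, NK]
    refine sum_le_sum fun k _ => ?_
    rw [ea]
    split_ifs <;> simp
  · simp only [sg, ea, sub_div, sum_sub_distrib]
    rw [abs_le]; constructor <;> linarith
  · simp only [LL, ea, sub_mul, sub_div, sum_sub_distrib]
    constructor <;> linarith

/-- lower bound for the sieve sums -/
def GB (W : ℕ) : Prop :=
  ∀ R : ℝ, 1 ≤ R → (W.totient : ℝ) / W * (Real.log R + 1.8) ≤ Gs W R ∧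
    (1000 ≤ R → (W.totient : ℝ) / W * (Real.log R + 2.2) ≤ Gs W R)

theorem th_le_bt {W ρ : ℕ} (hρ : ρ < W) {a b R : ℝ} (hR : 1 ≤ R) (hRa : R ≤ a) (hab : a ≤ b) (hG : 0 < Gs W R) :
    th W ρ b - th W ρ a ≤ Real.log b * (((b - a) / W + 1.2 * R ^ 2 + 4) / Gs W R) := by
  have hW : 0 < W := by omega
  have hW' : (0 : ℝ) < W := by exact_mod_cast hW
  rw [th_sub W ρ hab, Nat.mod_eq_of_lt hρ]
  set S := (Ioc ⌊a⌋₊ ⌊b⌋₊).filter (fun p => p.Prime ∧ p % W = ρ) with hS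
  have hfl : ⌊a⌋₊ / W ≤ ⌊b⌋₊ / W := Nat.div_le_div_right (Nat.floor_mono hab)
  have hel : ∀ p ∈ S, W * (p / W) + ρ = p := fun p hp => by
    rw [← (mem_filter.1 hp).2.2]; exact Nat.div_add_mod p W
  have h1 := Cfsg.Agent.Depth.S.bt W ρ W R (S.image (· / W)) (⌊a⌋₊ / W) (⌊b⌋₊ / W - ⌊a⌋₊ / W + 1) dvd_rfl hR (by
    intro j hj
    obtain ⟨p, hp, rfl⟩ := mem_image.1 hj
    have hp' := mem_filter.1 hp
    have h2 := mem_Ioc.1 hp'.1
    have h3 : ⌊a⌋₊ / W ≤ p / W := Nat.div_le_div_right h2.1.le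
    have h4 : p / W ≤ ⌊b⌋₊ / W := Nat.div_le_div_right h2.2
    refine ⟨h3, by omega, fun q hq hqR _ hd => ?_⟩
    rw [hel p hp, Nat.prime_dvd_prime_iff_eq hq hp'.2.1] at hd
    have : a < p := (Nat.floor_lt (by linarith)).1 h2.1
    rw [hd] at hqR
    linarith)
  rw [card_image_of_injOn (fun p hp q hq h => by
    rw [← hel p hp, ← hel q hq, show p / W = q / W from h])] at h1
  have h2 : ((⌊b⌋₊ / W - ⌊a⌋₊ / W + 1 : ℕ) : ℝ) ≤ (b - a) / W + 2 := by
    rw [Nat.cast_add, Nat.cast_sub hfl, ← Nat.floor_div_natCast, ← Nat.floor_div_natCast, sub_div]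
    have := Nat.floor_le (show 0 ≤ b / W from div_nonneg (by linarith) hW'.le)
    have := Nat.lt_floor_add_one (a / W)
    push_cast; linarith
  have h3 : (S.card : ℝ) ≤ ((b - a) / W + 1.2 * R ^ 2 + 4) / Gs W R :=
    h1.trans (div_le_div_of_nonneg_right (by linarith) hG.le)
  have h4 : ∑ p ∈ S, Real.log p ≤ S.card • Real.log b := by
    refine sum_le_card_nsmul _ _ _ fun p hp => ?_
    have hp' := mem_filter.1 hp
    exact log_le_log (by exact_mod_cast hp'.2.1.pos) ((Nat.le_floor_iff (by linarith)).1 (mem_Ioc.1 hp'.1).2)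
  rw [nsmul_eq_mul, mul_comm] at h4
  exact h4.trans (mul_le_mul_of_nonneg_left h3 (log_nonneg (by linarith)))

/-- upper bound for `10¹⁰ log (xl / y0)` -/
def l0 (xl y0 : ℕ) : ℕ := lgLo (xl / y0 + 1) + 130000

/-- lower bound for `10¹⁰ (log ρ + κ)` -/
def l1 (ρ : ℕ) : ℕ := lgLo ρ + if 1000 ≤ ρ then 22000000000 else 18000000000

/-- the sieve constant of a block for the level `ρ`, in units of `10⁻¹⁸` -/
def bR (W xl y0 y1 ρ : ℕ) : ℕ :=
  ((y1 - y0) * 10 ^ 18 / (y0 * y1) + (12 * ρ ^ 2 + 40) * W * 10 ^ 17 / xl + 2) * l0 xl y0 / l1 ρ + 1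

/-- the level `ρ` is admissible -/
def okR (xl y0 y1 ρ : ℕ) : Bool :=
  decide (1 ≤ ρ) && decide (ρ * y1 ≤ xl) && decide (2 * l1 ρ ≤ l0 xl y0) && decide ((xl / y0 + 1).log2 ≤ 200)

theorem bR_sound {W xl y0 y1 ρ r : ℕ} {x : ℝ} (hG : GB W) (hr : r < W) (h0 : 0 < y0) (h1 : y0 ≤ y1)
    (hok : okR xl y0 y1 ρ = true) (hx : (xl : ℝ) ≤ x) :
    th W r (x / y0) - th W r (x / y1) ≤ bR W xl y0 y1 ρ * (x / (W.totient * 10 ^ 18)) := by
  simp only [okR, Bool.and_eq_true, decide_eq_true_eq] at hok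
  obtain ⟨⟨⟨k1, k2⟩, k3⟩, k4⟩ := hok
  have hW : 0 < W := by omega
  have hW' : (0 : ℝ) < W := by exact_mod_cast hW
  have hφ : (0 : ℝ) < W.totient := by exact_mod_cast Nat.totient_pos.2 hW
  have hxl : 0 < xl := lt_of_lt_of_le (Nat.mul_pos k1 (by omega)) k2
  have hxl' : (0 : ℝ) < xl := by exact_mod_cast hxl
  have hy0 : (0 : ℝ) < y0 := by exact_mod_cast h0
  have hy1 : (y0 : ℝ) ≤ y1 := by exact_mod_cast h1
  have hρ : (1 : ℝ) ≤ ρ := by exact_mod_cast k1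
  have k2' : (ρ : ℝ) * y1 ≤ xl := by exact_mod_cast k2
  have hx0 : 0 < x := by linarith
  set v := x / xl with hv
  have hv1 : 1 ≤ v := by rw [hv, le_div_iff₀ hxl']; linarith
  have hxv : x = xl * v := by rw [hv]; field_simp
  have hs1 : 1 ≤ √v := by rw [one_le_sqrt]; exact hv1
  have hs2 : √v ≤ v := by rw [sqrt_le_left (by linarith)]; nlinarith
  have hR : 1 ≤ ρ * √v := by nlinarith
  have hRa : ρ * √v ≤ x / y1 := by
    rw [le_div_iff₀ (by linarith), hxv]; nlinarith [mul_le_mul k2' hs2 (by linarith) hxl'.le]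
  have hu : 0 ≤ Real.log v := log_nonneg hv1
  have hlR : Real.log (ρ * √v) = Real.log ρ + Real.log v / 2 := by
    rw [log_mul (by linarith) (by linarith), log_sqrt (by linarith)]
  have hl1 : (W.totient : ℝ) / W * ((l1 ρ : ℝ) / 10 ^ 10 + Real.log v / 2) ≤ Gs W (ρ * √v) := by
    have a1 := (lg_bounds k1).1
    rw [l1]
    split_ifs with h
    · refine le_trans ?_ ((hG _ hR).2 ?_)
      · rw [hlR]; push_cast; exact mul_le_mul_of_nonneg_left (by linarith) (by positivity)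
      · have : (1000 : ℝ) ≤ ρ := by exact_mod_cast h
        nlinarith
    · refine le_trans ?_ (hG _ hR).1
      rw [hlR]; push_cast; exact mul_le_mul_of_nonneg_left (by linarith) (by positivity)
  have hl1p : 0 < l1 ρ := by rw [l1]; split_ifs <;> omega
  have hl0 : Real.log (x / y0) ≤ (l0 xl y0 : ℝ) / 10 ^ 10 + Real.log v := by
    have a1 := (lg_bounds (n := xl / y0 + 1) (Nat.le_add_left _ _)).2 k4
    have a2 := (div_bounds xl y0 h0).2
    have a3 : Real.log (x / y0) ≤ Real.log ((xl / y0 + 1 : ℕ) * v) := by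
      refine log_le_log (by positivity) ?_
      rw [hxv, mul_div_right_comm]; push_cast; gcongr
    rw [log_mul (by positivity) (by linarith)] at a3
    rw [l0]; push_cast at a1 a3 ⊢; linarith
  rw [bR]
  generalize l1 ρ = m1 at *
  generalize l0 xl y0 = m0 at *
  have hl1p' : (0 : ℝ) < m1 := by exact_mod_cast hl1p
  have hGp : 0 < (W.totient : ℝ) / W * ((m1 : ℝ) / 10 ^ 10 + Real.log v / 2) := by positivity
  have hab : x / y1 ≤ x / y0 := div_le_div_of_nonneg_left hx0.le hy0 hy1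
  have k3' : 2 * (m1 : ℝ) ≤ m0 := by exact_mod_cast k3
  have hq : Real.log (x / y0) / ((m1 : ℝ) / 10 ^ 10 + Real.log v / 2) ≤ (m0 : ℝ) / m1 := by
    rw [div_le_div_iff₀ (by positivity) hl1p']; nlinarith
  set C : ℕ := (y1 - y0) * 10 ^ 18 / (y0 * y1) + (12 * ρ ^ 2 + 40) * W * 10 ^ 17 / xl + 2 with hC
  have hC' : ((x / y0 - x / y1) / W + 1.2 * (ρ * √v) ^ 2 + 4) * W ≤ C * (x / 10 ^ 18) := by
    have a1 := (div_bounds ((y1 - y0) * 10 ^ 18) (y0 * y1) (Nat.mul_pos h0 (by omega))).2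
    have a2 := (div_bounds ((12 * ρ ^ 2 + 40) * W * 10 ^ 17) xl hxl).2
    have a3 : ((x / y0 - x / y1) / W + 1.2 * (ρ * √v) ^ 2 + 4 * v) * W =
        ((((y1 - y0) * 10 ^ 18 : ℕ) : ℝ) / (y0 * y1 : ℕ) + (((12 * ρ ^ 2 + 40) * W * 10 ^ 17 : ℕ) : ℝ) / xl) *
          (x / 10 ^ 18) := by
      have : (y1 : ℝ) ≠ 0 := by linarith
      rw [mul_pow, sq_sqrt (by linarith), hv]
      push_cast [Nat.cast_sub h1]
      field_simp
      ring
    refine le_trans (mul_le_mul_of_nonneg_right (by linarith) hW'.le) (a3.le.trans ?_)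
    refine mul_le_mul_of_nonneg_right ?_ (by positivity)
    rw [hC, Nat.cast_add, Nat.cast_add, Nat.cast_ofNat]
    linarith
  refine (th_le_bt hr hR hRa hab (hGp.trans_le hl1)).trans ?_
  have hlog : 0 ≤ Real.log (x / y0) := log_nonneg (by linarith)
  have hnum : 0 ≤ (x / y0 - x / y1) / W + 1.2 * (ρ * √v) ^ 2 + 4 := by
    have : 0 ≤ (x / y0 - x / y1) / W := div_nonneg (by linarith) hW'.le
    positivity
  calc _ ≤ Real.log (x / y0) * (((x / y0 - x / y1) / W + 1.2 * (ρ * √v) ^ 2 + 4) /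
          ((W.totient : ℝ) / W * ((m1 : ℝ) / 10 ^ 10 + Real.log v / 2))) := by gcongr
    _ = Real.log (x / y0) / ((m1 : ℝ) / 10 ^ 10 + Real.log v / 2) *
          (((x / y0 - x / y1) / W + 1.2 * (ρ * √v) ^ 2 + 4) * W) / W.totient := by field_simp
    _ ≤ (m0 : ℝ) / m1 * (C * (x / 10 ^ 18)) / W.totient := by gcongr
    _ = ((C * m0 : ℕ) : ℝ) / m1 * (x / (W.totient * 10 ^ 18)) := by push_cast; field_simp
    _ ≤ _ := by
      refine mul_le_mul_of_nonneg_right ?_ (by positivity)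
      rw [Nat.cast_add, Nat.cast_one]
      exact (div_bounds _ _ hl1p).2

/-- an approximate square root from below (no claim is needed) -/
def isq (n : ℕ) : ℕ := (fun g => (g + n / g) / 2)^[9] (2 ^ (n.log2 / 2 + 1)) - 1

/-- first choice of the level -/
def rho1 (W xl y0 y1 : ℕ) : ℕ :=
  isq (xl * (y1 - y0) / (y0 * y1 * W) * 100 / ((xl * (y1 - y0) / (y0 * y1 * W)).log2 * 83 + 100)) + 1

/-- choice of the level -/
def rho (W xl y0 y1 : ℕ) : ℕ :=
  if okR xl y0 y1 1000 && decide (bR W xl y0 y1 1000 < bR W xl y0 y1 (rho1 W xl y0 y1)) then 1000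
  else rho1 W xl y0 y1

/-- sieve constant of a block of rows -/
def bS (W xl s0 s1 : ℕ) : ℕ := bR W xl (s0 * W) (s1 * W) (rho W xl (s0 * W) (s1 * W))

/-- test of a block of rows -/
def okS (W xl s0 s1 : ℕ) : Bool := okR xl (s0 * W) (s1 * W) (rho W xl (s0 * W) (s1 * W))

/-- block constant from a pointwise bound -/
def bP (lo up y0 y1 : ℕ) : ℕ := up * 10 ^ 14 / y0 + 1 - lo * 10 ^ 14 / y1

theorem bP_sound {W x1 xl lo up y0 y1 r : ℕ} {x : ℝ} (hP : PP W x1 ((lo : ℝ) / 10 ^ 4) ((up : ℝ) / 10 ^ 4))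
    (hW : 0 < W) (hr : r.Coprime W) (h0 : 0 < y0) (h1 : y0 ≤ y1) (hok : x1 * y1 ≤ xl) (hx : (xl : ℝ) ≤ x) :
    th W r (x / y0) - th W r (x / y1) ≤ bP lo up y0 y1 * (x / (W.totient * 10 ^ 18)) := by
  have hφ : (0 : ℝ) < W.totient := by exact_mod_cast Nat.totient_pos.2 hW
  have hy0 : (0 : ℝ) < y0 := by exact_mod_cast h0
  have hy1 : (y0 : ℝ) ≤ y1 := by exact_mod_cast h1
  have hx0 : 0 ≤ x := le_trans (Nat.cast_nonneg _) hx
  have hok' : (x1 : ℝ) * y1 ≤ xl := by exact_mod_cast hok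
  have a0 : (x1 : ℝ) ≤ x / y1 := by rw [le_div_iff₀ (by linarith)]; linarith
  have a1 := (hP r (x / y1) hr a0).1
  have a2 := (hP r (x / y0) hr (a0.trans (div_le_div_of_nonneg_left hx0 hy0 hy1))).2
  have a3 := (div_bounds (up * 10 ^ 14) y0 h0).2
  have a4 := (div_bounds (lo * 10 ^ 14) y1 (by omega)).1
  have a5 : ((up * 10 ^ 14 / y0 : ℕ) : ℝ) + 1 - (lo * 10 ^ 14 / y1 : ℕ) ≤ bP lo up y0 y1 := by
    have : up * 10 ^ 14 / y0 + 1 ≤ bP lo up y0 y1 + lo * 10 ^ 14 / y1 := by rw [bP]; omega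
    have : ((up * 10 ^ 14 / y0 : ℕ) : ℝ) + 1 ≤ bP lo up y0 y1 + (lo * 10 ^ 14 / y1 : ℕ) := by exact_mod_cast this
    linarith
  have a6 : (up : ℝ) / 10 ^ 4 * (x / y0) / W.totient - (lo : ℝ) / 10 ^ 4 * (x / y1) / W.totient =
      (((up * 10 ^ 14 : ℕ) : ℝ) / y0 - ((lo * 10 ^ 14 : ℕ) : ℝ) / y1) * (x / (W.totient * 10 ^ 18)) := by
    have : (y1 : ℝ) ≠ 0 := by linarith
    push_cast; field_simp; ring
  have a7 : (((up * 10 ^ 14 : ℕ) : ℝ) / y0 - ((lo * 10 ^ 14 : ℕ) : ℝ) / y1) * (x / (W.totient * 10 ^ 18)) ≤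
      bP lo up y0 y1 * (x / (W.totient * 10 ^ 18)) := mul_le_mul_of_nonneg_right (by linarith) (by positivity)
  linarith

/-- the error terms, in units of `10⁻¹⁸ x / φ`; `q0, q1, q2` are below the square roots of `xl/y0, xl/y1, xl` -/
def ErN (W ph nk xl s0 s1 : ℕ) : ℕ :=
  (nk + 1) * ((2 * xl).log2 + 2) * ph * 10 ^ 18 / xl + 320 * ph * 10 ^ 18 / (s0 * W * isq (xl / (s0 * W))) +
    (s1 + 1) * 12 * ph * 10 ^ 5 +
    (nk + 2) * (1106 * isq (xl / (s1 * W)) + 26000) * ph * 10 ^ 15 / (s1 * W * isq (xl / (s1 * W))) +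
    4 * ph * 10 ^ 18 / isq xl + 4

/-- the final test -/
def chkF (W ph K nk Llo Lup xl s0 s1 sP sM lo up : ℕ) : Bool :=
  decide (K ≤ xl) && decide (10 ^ 8 * (s0 * W) ≤ xl) && decide (isq (xl / (s0 * W)) ^ 2 * (s0 * W) ≤ xl) &&
  decide (isq (xl / (s1 * W)) ^ 2 * (s1 * W) ≤ xl) && decide (isq xl ^ 2 ≤ xl) &&
  decide (0 < isq (xl / (s0 * W))) && decide (0 < isq (xl / (s1 * W))) && decide (0 < isq xl) &&
  decide (lo * 10 ^ 14 + sP + ErN W ph nk xl s0 s1 ≤ Llo * ph * 10 ^ 12 / W) &&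
  decide (Lup * ph * 10 ^ 12 / W + 1 + sM + ErN W ph nk xl s0 s1 ≤ up * 10 ^ 14)

theorem sqrt_le_div {q t : ℝ} (hq : 0 < q) (h : q ^ 2 ≤ t) : √t ≤ t / q := by
  have h0 : 0 ≤ t := le_trans (by positivity) h
  have h1 : q ≤ √t := by rw [le_sqrt hq.le h0]; exact h
  rw [le_div_iff₀ hq]
  nlinarith [mul_self_sqrt h0, sqrt_nonneg t]

theorem castE {a b z1 z2 z3 z4 z5 c : ℕ} (h : a + b + (z1 + z2 + z3 + z4 + z5 + 4) ≤ c) :
    (a : ℝ) + b + (z1 + z2 + z3 + z4 + z5 + 4) ≤ c := by exact_mod_cast h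

theorem finA {U D m sP sM E1 E2 E3 E4 E5 z1 z2 z3 z4 z5 zl zu lo up : ℝ}
    (hm : m - sP * U - (E1 + E2 + E3 + E4) - E5 ≤ D ∧ D ≤ m + sM * U + (E1 + E2 + E3 + E4))
    (e1 : E1 ≤ (z1 + 1) * U) (e2 : E2 ≤ (z2 + 1) * U) (e3 : E3 ≤ z3 * U) (e4 : E4 ≤ (z4 + 1) * U)
    (e5 : E5 ≤ (z5 + 1) * U) (e6 : 0 ≤ E5) (e7 : zl * U ≤ m) (e8 : m ≤ (zu + 1) * U)
    (k9 : (lo + sP + (z1 + z2 + z3 + z4 + z5 + 4)) * U ≤ zl * U)
    (k10 : (zu + 1 + sM + (z1 + z2 + z3 + z4 + z5 + 4)) * U ≤ up * U) : lo * U ≤ D ∧ D ≤ up * U := by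
  constructor <;> linarith [hm.1, hm.2]

theorem fin {c W ph K Ap Am nk Llo Lup xl s0 lo up : ℕ} {t : List (ℕ × ℕ × ℕ)} (hc12 : c = 1 ∨ c = 2) (hW : 0 < W)
    (hph : W.totient = ph) (hK : 1 ≤ K) (hF : Facts W K Ap Am nk Llo Lup) (β : ℕ → ℕ → ℕ) (ok : ℕ → ℕ → Bool)
    (hB : ∀ x : ℝ, (xl : ℝ) ≤ x → ∀ s0 s1, 0 < s0 → s0 < s1 → ok s0 s1 = true → ∀ ρ, ρ < W → ρ.Coprime W →
      th W ρ (x / (s0 * W : ℕ)) - th W ρ (x / (s1 * W : ℕ)) ≤ β s0 s1 * (x / (W.totient * 10 ^ 18)))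
    (hs0 : 0 < s0) (hT : Tab c W K Ap Am 0 ((s0, 0, 0) :: t)) (hok : allOk ok s0 t = true)
    (hch : chkF W ph K nk Llo Lup xl s0 (lastR s0 t) (sumP β s0 t) (sumM β s0 t) lo up = true)
    (r : ℕ) (x : ℝ) (hr : r.Coprime W) (hx : (xl : ℝ) ≤ x) :
    (lo : ℝ) / 10 ^ 4 * x / W.totient ≤ th W r (c * x) - th W r ((c - 1) * x) ∧
      th W r (c * x) - th W r ((c - 1) * x) ≤ (up : ℝ) / 10 ^ 4 * x / W.totient := by
  obtain ⟨f1, f2, f3, f4, f5, f6⟩ := hF
  simp only [chkF, Bool.and_eq_true, decide_eq_true_eq] at hch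
  obtain ⟨⟨⟨⟨⟨⟨⟨⟨⟨k1, k2⟩, k3⟩, k4⟩, k5⟩, k6⟩, k7⟩, k8⟩, k9⟩, k10⟩ := hch
  have hs1 : s0 ≤ lastR s0 t := le_lastR ok t s0 hok
  have hy0 : 0 < s0 * W := Nat.mul_pos hs0 hW
  have hxl : 0 < xl := by omega
  have hxl' : (0 : ℝ) < xl := by exact_mod_cast hxl
  have hx0 : 0 < x := by linarith
  have hφ : (0 : ℝ) < W.totient := by exact_mod_cast Nat.totient_pos.2 hW
  have hW' : (0 : ℝ) < W := by exact_mod_cast hW
  have hr' : (r % W).Coprime W := by rw [Nat.Coprime, ← Nat.gcd_rec, Nat.gcd_comm]; exact hr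
  have hm := master hc12 (Nat.mod_lt r hW) hr' hK (le_trans (by exact_mod_cast k1) hx)
    (show 0 ≤ x / (W.totient * 10 ^ 18) by positivity) f1 f2 β ok (hB x hx) hs0 hT hok
  have eth : ∀ y, th W (r % W) y = th W r y := fun y => by simp only [th, Nat.mod_mod]
  rw [eth, eth, Er] at hm
  rw [ErN] at k9 k10
  generalize lastR s0 t = s1 at *
  generalize sumP β s0 t = sP at *
  generalize sumM β s0 t = sM at *
  have hy1 : 0 < s1 * W := Nat.mul_pos (by omega) hW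
  generalize isq (xl / (s0 * W)) = q0 at *
  generalize isq (xl / (s1 * W)) = q1 at *
  generalize isq xl = q2 at *
  generalize s0 * W = y0 at *
  generalize s1 * W = y1 at *
  rw [hph] at hm hφ ⊢
  set U := x / (ph * 10 ^ 18) with hU
  have hU0 : 0 < U := by positivity
  have hxU : x = ph * 10 ^ 18 * U := by rw [hU]; field_simp
  have hy0' : (0 : ℝ) < y0 := by exact_mod_cast hy0
  have hy1' : (0 : ℝ) < y1 := by exact_mod_cast hy1
  have hq0 : (0 : ℝ) < q0 := by exact_mod_cast k6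
  have hq1 : (0 : ℝ) < q1 := by exact_mod_cast k7
  have hq2 : (0 : ℝ) < q2 := by exact_mod_cast k8
  have k2' : 10 ^ 8 * (y0 : ℝ) ≤ xl := by exact_mod_cast k2
  have k3' : (q0 : ℝ) ^ 2 * y0 ≤ xl := by exact_mod_cast k3
  have k4' : (q1 : ℝ) ^ 2 * y1 ≤ xl := by exact_mod_cast k4
  have k5' : (q2 : ℝ) ^ 2 ≤ xl := by exact_mod_cast k5
  have hy01 : (1 : ℝ) ≤ y0 := by exact_mod_cast hy0
  have hc1 : x ≤ c * x ∧ c * x ≤ 2 * x := by rcases hc12 with rfl | rfl <;> constructor <;> push_cast <;> linarith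
  have hσ := abs_nonneg (sg K Ap Am)
  have hNK : 0 ≤ NK K Ap Am := sum_nonneg fun _ _ => abs_nonneg _
  have dv : ∀ (a b : ℕ) (z : ℝ), 0 < b → z ≤ (a : ℝ) / b * U → z ≤ ((a / b : ℕ) + 1) * U := fun a b z hb h =>
    h.trans (mul_le_mul_of_nonneg_right (div_bounds a b hb).2 hU0.le)
  have e1 := dv ((nk + 1) * ((2 * xl).log2 + 2) * ph * 10 ^ 18) xl
      ((NK K Ap Am + |sg K Ap Am|) * (Real.log (c * x) + 1)) hxl (by
    have a1 : (2 * xl : ℝ) ≤ 2 ^ ((2 * xl).log2 + 1) := by exact_mod_cast (Nat.lt_log2_self (n := 2 * xl)).le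
    generalize (2 * xl).log2 = l at *
    have hv1 : 1 ≤ x / xl := by rw [le_div_iff₀ hxl']; linarith
    have a2 : Real.log (c * x) ≤ (l + 1) * Real.log 2 + Real.log (x / xl) := by
      rw [← Nat.cast_succ, ← log_pow, ← log_mul (by positivity) (by positivity)]
      refine log_le_log (by linarith [hc1.1]) (hc1.2.trans ?_)
      calc 2 * x = 2 * xl * (x / xl) := by field_simp
        _ ≤ _ := by gcongr
    have a3 := Real.log_le_sub_one_of_pos (show 0 < x / xl by linarith)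
    have a4 := Real.log_two_lt_d9
    have a5 : Real.log (c * x) + 1 ≤ (l + 2) * (x / xl) := by
      have : (0 : ℝ) ≤ l := Nat.cast_nonneg _
      nlinarith
    have a6 : 0 ≤ Real.log (c * x) + 1 := by
      have := log_nonneg (show 1 ≤ (c : ℝ) * x by linarith [hc1.1]); linarith
    calc _ ≤ (nk + 1) * ((l + 2) * (x / xl)) := mul_le_mul (by linarith) a5 a6 (by positivity)
      _ = _ := by rw [hU]; push_cast; field_simp; norm_num)
  have e2 := dv (320 * ph * 10 ^ 18) (y0 * q0) (160 * (ψ (x / y0) - θ (x / y0))) (Nat.mul_pos hy0 k6) (by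
    have a1 := psi_sub_theta (t := x / y0) (by rw [le_div_iff₀ hy0']; linarith)
    have a2 := sqrt_le_div (t := x / y0) hq0 (by rw [le_div_iff₀ hy0']; linarith)
    calc _ ≤ 320 * (x / y0 / q0) := by linarith
      _ = _ := by rw [hU]; push_cast; field_simp; norm_num)
  have e3 : |sg K Ap Am| * (s1 + 1) * ψ (c * x) ≤ ((s1 + 1) * 12 * ph * 10 ^ 5 : ℕ) * U := by
    have a1 := Chebyshev.psi_le_const_mul_self (x := c * x) (by linarith [hc1.1])
    have l4 : Real.log 4 ≤ 1.4 := by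
      rw [show (4 : ℝ) = 2 ^ 2 by norm_num, log_pow]; have := Real.log_two_lt_d9; norm_num; linarith
    have a2 : ψ (c * x) ≤ 12 * x := by nlinarith [hc1.1, hc1.2]
    calc _ ≤ 1 / 10 ^ 13 * (s1 + 1) * (12 * x) := by gcongr
      _ = _ := by rw [hU]; push_cast; field_simp; norm_num
  have e4 := dv ((nk + 2) * (1106 * q1 + 26000) * ph * 10 ^ 15) (y1 * q1)
      ((NK K Ap Am + |sg K Ap Am| + 1) * ψ (x / y1)) (Nat.mul_pos hy1 k7) (by
    have a1 := cheb (t := x / y1) (by positivity)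
    have a2 := sqrt_le_div (t := x / y1) hq1 (by rw [le_div_iff₀ hy1']; linarith)
    calc _ ≤ (nk + 2) * (1.106 * (x / y1) + 26 * (x / y1 / q1)) :=
          mul_le_mul (by linarith) (by linarith) (Chebyshev.psi_nonneg _) (by positivity)
      _ = _ := by rw [hU]; push_cast; field_simp; ring)
  have e5 := dv (4 * ph * 10 ^ 18) q2 (ψ (c * x) - θ (c * x)) k8 (by
    have a1 := psi_sub_theta (t := c * x) (by linarith [hc1.1])
    have a2 := sqrt_le_div (t := c * x) hq2 (by linarith [hc1.1])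
    have a3 : c * x / q2 ≤ 2 * x / q2 := div_le_div_of_nonneg_right hc1.2 hq2.le
    calc _ ≤ 2 * (2 * x / q2) := by linarith
      _ = _ := by rw [hU]; push_cast; field_simp; ring)
  have e6 : 0 ≤ ψ (c * x) - θ (c * x) := sub_nonneg.2 (Chebyshev.theta_le_psi _)
  have e7 : ((Llo * ph * 10 ^ 12 / W : ℕ) : ℝ) * U ≤ x * LL K Ap Am / W := by
    refine (mul_le_mul_of_nonneg_right (div_bounds _ _ hW).1 hU0.le).trans ?_
    calc _ = x * (Llo / 10 ^ 6) / W := by rw [hU]; push_cast; field_simp; ring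
      _ ≤ _ := by gcongr
  have e8 := dv (Lup * ph * 10 ^ 12) W (x * LL K Ap Am / W) hW (by
    calc _ ≤ x * (Lup / 10 ^ 6) / W := by gcongr
      _ = _ := by rw [hU]; push_cast; field_simp; ring)
  have e9 : ∀ z : ℕ, (z : ℝ) / 10 ^ 4 * x / ph = (z * 10 ^ 14 : ℕ) * U := fun z => by
    rw [hU]; push_cast; field_simp; ring
  have k9' := mul_le_mul_of_nonneg_right (castE k9) hU0.le
  have k10' := mul_le_mul_of_nonneg_right (castE k10) hU0.le
  rw [Nat.cast_add, Nat.cast_one] at k10'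
  rw [e9, e9]
  exact finA hm e1 e2 e3 e4 e5 e6 e7 e8 k9' k10'

theorem pi_of {W ph K Ap Am nk Llo Lup xl s0 lo up : ℕ} {t : List (ℕ × ℕ × ℕ)} (hG : GB W) (hW : 0 < W)
    (hph : W.totient = ph) (hK : 1 ≤ K) (hF : Facts W K Ap Am nk Llo Lup) (hs0 : 0 < s0)
    (hT : Tab 2 W K Ap Am 0 ((s0, 0, 0) :: t))
    (hch : (allOk (okS W xl) s0 t &&
      chkF W ph K nk Llo Lup xl s0 (lastR s0 t) (sumP (bS W xl) s0 t) (sumM (bS W xl) s0 t) lo up) = true) :
    PI W xl ((lo : ℝ) / 10 ^ 4) ((up : ℝ) / 10 ^ 4) := by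
  rw [Bool.and_eq_true] at hch
  intro r x hr hx
  have := fin (Or.inr rfl) hW hph hK hF (bS W xl) (okS W xl) (fun x hx s0 s1 h0 h1 hok ρ hρ _ =>
    bR_sound hG hρ (Nat.mul_pos h0 hW) (Nat.mul_le_mul_right _ h1.le) hok hx) hs0 hT hch.1 hch.2 r x hr hx
  norm_num at this ⊢
  exact this

theorem th_zero (W r : ℕ) : th W r 0 = 0 := by simp [th]

theorem pp_of {W ph K Ap Am nk Llo Lup xl s0 lo up : ℕ} {t : List (ℕ × ℕ × ℕ)} (hG : GB W) (hW : 0 < W)
    (hph : W.totient = ph) (hK : 1 ≤ K) (hF : Facts W K Ap Am nk Llo Lup) (hs0 : 0 < s0)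
    (hT : Tab 1 W K Ap Am 0 ((s0, 0, 0) :: t))
    (hch : (allOk (okS W xl) s0 t &&
      chkF W ph K nk Llo Lup xl s0 (lastR s0 t) (sumP (bS W xl) s0 t) (sumM (bS W xl) s0 t) lo up) = true) :
    PP W xl ((lo : ℝ) / 10 ^ 4) ((up : ℝ) / 10 ^ 4) := by
  rw [Bool.and_eq_true] at hch
  intro r x hr hx
  have := fin (Or.inl rfl) hW hph hK hF (bS W xl) (okS W xl) (fun x hx s0 s1 h0 h1 hok ρ hρ _ =>
    bR_sound hG hρ (Nat.mul_pos h0 hW) (Nat.mul_le_mul_right _ h1.le) hok hx) hs0 hT hch.1 hch.2 r x hr hx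
  simpa [th_zero] using this

/-- second stage: the better of the two constants -/
def bQ (W xl lo up s0 s1 : ℕ) : ℕ := min (bS W xl s0 s1) (bP lo up (s0 * W) (s1 * W))

/-- second stage: test -/
def okQ (W xl x1 s0 s1 : ℕ) : Bool := okS W xl s0 s1 && decide (x1 * (s1 * W) ≤ xl)

theorem pp_of2 {W ph K Ap Am nk Llo Lup xl s0 lo up x1 lo1 up1 : ℕ} {t : List (ℕ × ℕ × ℕ)} (hG : GB W) (hW : 0 < W)
    (hph : W.totient = ph) (hK : 1 ≤ K) (hF : Facts W K Ap Am nk Llo Lup) (hs0 : 0 < s0)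
    (hT : Tab 1 W K Ap Am 0 ((s0, 0, 0) :: t)) (hP : PP W x1 ((lo1 : ℝ) / 10 ^ 4) ((up1 : ℝ) / 10 ^ 4))
    (hch : (allOk (okQ W xl x1) s0 t && chkF W ph K nk Llo Lup xl s0 (lastR s0 t) (sumP (bQ W xl lo1 up1) s0 t)
      (sumM (bQ W xl lo1 up1) s0 t) lo up) = true) :
    PP W xl ((lo : ℝ) / 10 ^ 4) ((up : ℝ) / 10 ^ 4) := by
  rw [Bool.and_eq_true] at hch
  intro r x hr hx
  have := fin (Or.inl rfl) hW hph hK hF (bQ W xl lo1 up1) (okQ W xl x1) (fun x hx s0 s1 h0 h1 hok ρ hρ hc => by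
    simp only [okQ, Bool.and_eq_true, decide_eq_true_eq] at hok
    rw [bQ]
    rcases min_choice (bS W xl s0 s1) (bP lo1 up1 (s0 * W) (s1 * W)) with h | h <;> rw [h]
    · exact bR_sound hG hρ (Nat.mul_pos h0 hW) (Nat.mul_le_mul_right _ h1.le) hok.1 hx
    · exact bP_sound hP hW hc (Nat.mul_pos h0 hW) (Nat.mul_le_mul_right _ h1.le) hok.2 hx) hs0 hT hch.1 hch.2 r x hr hx
  simpa [th_zero] using this

end Cfsg.Agent.Depth.P
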